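import Mathlib

set_option autoImplicit false

namespace Cfsg.Agent.H8B

variable {H V : Type*} [Group H] [AddCommGroup V] [DistribMulAction H V]

/-- The binary property of an affine group with linear part `H`. -/
def Bin (H V : Type*) [Group H] [AddCommGroup V] [DistribMulAction H V] : Prop :=
  ∀ S : Set (V × V), (∀ x ∈ S, ∃ h : H, h • x.1 = x.2) →
    (∀ x ∈ S, ∀ y ∈ S, ∃ h : H, h • (x.1 - y.1) = x.2 - y.2) →
    ∃ h : H, ∀ x ∈ S, h • x.1 = x.2

theorem bin_aff (hB : Bin H V) (S : Set (V × V))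
    (hS : ∀ x ∈ S, ∀ y ∈ S, ∃ h : H, h • (x.1 - y.1) = x.2 - y.2) :
    ∃ h : H, ∀ x ∈ S, ∀ y ∈ S, h • (x.1 - y.1) = x.2 - y.2 := by
  rcases S.eq_empty_or_nonempty with rfl | ⟨z, hz⟩
  · exact ⟨1, fun x hx => absurd hx (Set.notMem_empty x)⟩
  obtain ⟨h, hh⟩ := hB ((fun x : V × V => (x.1 - z.1, x.2 - z.2)) '' S)
    (by
      rintro _ ⟨x, hx, rfl⟩
      exact hS x hx z hz)
    (by
      rintro _ ⟨x, hx, rfl⟩ _ ⟨y, hy, rfl⟩
      obtain ⟨h, hh⟩ := hS x hx y hy
      refine ⟨h, ?_⟩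
      simp only [sub_sub_sub_cancel_right]
      exact hh)
  refine ⟨h, fun x hx y hy => ?_⟩
  have h1 := hh _ ⟨x, hx, rfl⟩
  have h2 := hh _ ⟨y, hy, rfl⟩
  simp only at h1 h2
  have : x.1 - y.1 = (x.1 - z.1) - (y.1 - z.1) := by abel
  rw [this, smul_sub, h1, h2]
  abel

theorem bin_shift (hB : Bin H V) (x : V) :
    ∃ h : H, ∀ y : V, (∃ g : H, g • y = y + x) → h • y = y + x := by
  by_cases hE : ∃ w : V, ∃ g : H, g • w = w + x
  · obtain ⟨w, gw, hw⟩ := hE
    obtain ⟨h, hh⟩ := hB ({z | ∃ y : V, (∃ g : H, g • y = y + x) ∧ z = (w - y, w - y)} ∪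
        {(w, w + x)})
      (by
        rintro z (⟨y, -, rfl⟩ | rfl)
        · exact ⟨1, one_smul _ _⟩
        · exact ⟨gw, hw⟩)
      (by
        rintro z (⟨y, ⟨g, hg⟩, rfl⟩ | rfl) z' (⟨y', ⟨g', hg'⟩, rfl⟩ | rfl)
        · exact ⟨1, one_smul _ _⟩
        · refine ⟨g, ?_⟩
          have e1 : w - y - w = - y := by abel
          have e2 : w - y - (w + x) = -(y + x) := by abel
          simp only
          rw [e1, e2, smul_neg, hg]
        · refine ⟨g', ?_⟩
          have e1 : w - (w - y') = y' := by abel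
          have e2 : w + x - (w - y') = y' + x := by abel
          simp only
          rw [e1, e2, hg']
        · refine ⟨1, ?_⟩
          simp)
    have hw' : h • w = w + x := hh (w, w + x) (Or.inr rfl)
    refine ⟨h, fun y hy => ?_⟩
    have h1 : h • (w - y) = w - y := hh (w - y, w - y) (Or.inl ⟨y, hy, rfl⟩)
    have : y = w - (w - y) := by abel
    rw [this, smul_sub, h1, hw']
    abel
  · exact ⟨1, fun y hy => absurd ⟨y, hy⟩ hE⟩

theorem bin_inv (hB : Bin H V) (h : H) (v : V) : ∃ g : H, g • v = v ∧ g • h • v = h⁻¹ • v := by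
  obtain ⟨g, hg⟩ := hB {(v, v), (v + h • v, v + h⁻¹ • v)}
    (by
      rintro z (rfl | rfl)
      · exact ⟨1, one_smul _ _⟩
      · refine ⟨h⁻¹, ?_⟩
        simp only [smul_add, inv_smul_smul]
        abel)
    (by
      rintro z (rfl | rfl) z' (rfl | rfl)
      · exact ⟨1, by simp⟩
      · refine ⟨h⁻¹ * h⁻¹, ?_⟩
        have e1 : v - (v + h • v) = - (h • v) := by abel
        have e2 : v - (v + h⁻¹ • v) = - (h⁻¹ • v) := by abel
        simp only
        rw [e1, e2, smul_neg, mul_smul, inv_smul_smul]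
      · refine ⟨h⁻¹ * h⁻¹, ?_⟩
        have e1 : (v + h • v) - v = (h • v) := by abel
        have e2 : (v + h⁻¹ • v) - v = (h⁻¹ • v) := by abel
        simp only
        rw [e1, e2, mul_smul, inv_smul_smul]
      · exact ⟨1, by simp⟩)
  have h1 : g • v = v := hg (v, v) (Or.inl rfl)
  have h2 : g • (v + h • v) = v + h⁻¹ • v := hg (v + h • v, v + h⁻¹ • v) (Or.inr rfl)
  rw [smul_add, h1] at h2
  exact ⟨g, h1, add_left_cancel h2⟩

theorem bin_swap (hB : Bin H V) {v w : V} (hvw : ∃ h : H, h • v = w) :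
    ∃ k : H, k • v = w ∧ k • w = v := by
  obtain ⟨h, rfl⟩ := hvw
  obtain ⟨g, hg1, hg2⟩ := bin_inv hB h v
  refine ⟨h * g, ?_, ?_⟩
  · rw [mul_smul, hg1]
  · rw [mul_smul, hg2, smul_inv_smul]

theorem bin_K3 (hB : Bin H V) {k : H} {y w : V} (hw : k • w = w)
    (hA : ∃ g : H, g • w = w + (k • y - y)) : k • y = y := by
  obtain ⟨h, hh⟩ := bin_shift hB (k • y - y)
  have h1 := hh w hA
  have h2 := hh y ⟨k, by abel⟩
  have h3 := hh (y - w) ⟨k, by rw [smul_sub, hw]; abel⟩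
  rw [smul_sub, h1, h2] at h3
  have h4 : k • y - y = 0 := by
    have e : y + (k • y - y) - (w + (k • y - y)) = y - w := by abel
    rw [e] at h3
    exact (left_eq_add.mp h3)
  exact sub_eq_zero.mp h4

theorem bin_regular [FaithfulSMul H V] (hB : Bin H V) {v : V}
    (hv : ∀ h : H, h • v = v → h = 1) (h : H) : h * h = 1 := by
  obtain ⟨g, hg1, hg2⟩ := bin_inv hB h v
  have hg := hv g hg1
  subst hg
  rw [one_smul] at hg2
  apply hv
  rw [mul_smul, hg2, smul_inv_smul]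

theorem bin_fix (hB : Bin H V) (T : Set V) : Bin (fixingSubgroup H T) V := by
  intro S h1 h2
  obtain ⟨h, hh⟩ := hB (S ∪ (fun t => (t, t)) '' T)
    (by
      rintro z (hz | ⟨t, ht, rfl⟩)
      · obtain ⟨k, hk⟩ := h1 z hz
        exact ⟨k, hk⟩
      · exact ⟨1, one_smul _ _⟩)
    (by
      rintro z (hz | ⟨t, ht, rfl⟩) z' (hz' | ⟨t', ht', rfl⟩)
      · obtain ⟨k, hk⟩ := h2 z hz z' hz'
        exact ⟨k, hk⟩
      · obtain ⟨k, hk⟩ := h1 z hz
        refine ⟨k, ?_⟩
        have hk' : (k : H) • z.1 = z.2 := hk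
        have := (mem_fixingSubgroup_iff H).mp k.2 t' ht'
        simp only
        rw [smul_sub, this, hk']
      · obtain ⟨k, hk⟩ := h1 z' hz'
        refine ⟨k, ?_⟩
        have hk' : (k : H) • z'.1 = z'.2 := hk
        have := (mem_fixingSubgroup_iff H).mp k.2 t ht
        simp only
        rw [smul_sub, this, hk']
      · exact ⟨1, one_smul _ _⟩)
  refine ⟨⟨h, ?_⟩, fun x hx => hh x (Or.inl hx)⟩
  rw [mem_fixingSubgroup_iff]
  intro t ht
  exact hh (t, t) (Or.inr ⟨t, ht, rfl⟩)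

end Cfsg.Agent.H8B
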