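import Cfsg.Agent.H8B.Field

set_option autoImplicit false

namespace Cfsg.Agent.H8B

theorem dih {K : Type*} [Group K] (R : Set K) (h1 : (1 : K) ∉ R) (h2 : ∀ r ∈ R, r * r = 1)
    (hinv : ∀ h : K, h * h ≠ 1 → ∀ r ∈ R, r * h * r = h⁻¹)
    (hRR : ∀ r ∈ R, ∀ s ∈ R, r * s ∉ R)
    (hm : ∀ a : K, a * a = 1 → a ≠ 1 → a ∉ R → ∀ r ∈ R, a * r ∈ R ∧ r * a ∈ R)
    (hne : R.Nonempty) :
    ∃ Z : Subgroup K, (∀ h, h ∈ Z ↔ h ∉ R) ∧ (∀ r ∈ R, ∀ z ∈ Z, r * z * r⁻¹ = z⁻¹) ∧
      (∀ a ∈ Z, ∀ b ∈ Z, a * b = b * a) ∧ Nat.card Z = Nat.card R ∧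
      (∀ r ∈ R, ∀ h, h ∉ Z → h * r ∈ Z) := by
  have hri : ∀ r ∈ R, r⁻¹ = r := fun r hr => inv_eq_of_mul_eq_one_left (h2 r hr)
  let Z : Subgroup K :=
    { carrier := {h | h ∉ R}
      one_mem' := h1
      inv_mem' := by
        intro a ha hcon
        apply ha
        have := hri _ hcon
        rw [inv_inv] at this
        rw [this]; exact hcon
      mul_mem' := by
        intro a b ha hb hr
        change a ∉ R at ha
        change b ∉ R at hb
        change a * b ∈ R at hr
        by_cases ha1 : a = 1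
        · rw [ha1, one_mul] at hr; exact hb hr
        by_cases hb1 : b = 1
        · rw [hb1, mul_one] at hr; exact ha hr
        by_cases ha2 : a * a = 1
        · have := (hm a ha2 ha1 ha _ hr).1
          rw [← mul_assoc, ha2, one_mul] at this
          exact hb this
        by_cases hb2 : b * b = 1
        · have := (hm b hb2 hb1 hb _ hr).2
          rw [mul_assoc, hb2, mul_one] at this
          exact ha this
        have e1 := hinv a ha2 _ hr
        have e2 := h2 _ hr
        -- (ab) a (ab) = a⁻¹ and (ab)(ab) = 1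
        apply hb2
        have e3 : (a * b) * a * (a * b) = a⁻¹ := e1
        have e4 : (a * b) * (a * b) = 1 := e2
        have e5 : b * a = a⁻¹ * b⁻¹ := by
          have : b * a = a⁻¹ * ((a * b) * (a * b)) * b⁻¹ := by group
          rw [this, e4, mul_one]
        have e6 : a * b * a = b⁻¹ := by
          rw [mul_assoc, e5]; group
        rw [e6] at e3
        -- b⁻¹ (a b) = a⁻¹
        have e7 : a * b = b * a⁻¹ := by
          rw [← e3]; group
        have e8 : b * a⁻¹ * (b * a⁻¹) = 1 := by rw [← e7]; exact e4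
        calc b * b = b * (a⁻¹ * b) * (b⁻¹ * a * b) := by group
          _ = b * (a⁻¹ * b) * a⁻¹ := by rw [show b⁻¹ * a * b = a⁻¹ from by rw [mul_assoc]; exact e3]
          _ = b * a⁻¹ * (b * a⁻¹) := by group
          _ = 1 := e8 }
  have hZ : ∀ h, h ∈ Z ↔ h ∉ R := fun h => Iff.rfl
  have hrz : ∀ r ∈ R, ∀ z ∈ Z, r * z ∈ R := by
    intro r hr z hz
    by_contra hcon
    have : r * z ∈ Z := hcon
    have h3 : r ∈ Z := (Subgroup.mul_mem_cancel_right Z hz).mp this
    exact h3 hr
  have hinvZ : ∀ r ∈ R, ∀ z ∈ Z, r * z * r⁻¹ = z⁻¹ := by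
    intro r hr z hz
    have h3 := h2 _ (hrz r hr z hz)
    rw [hri r hr]
    have : r * z * r * z = 1 := by rw [← h3]; group
    exact eq_inv_of_mul_eq_one_left this
  refine ⟨Z, hZ, hinvZ, ?_, ?_, ?_⟩
  · obtain ⟨r, hr⟩ := hne
    intro a ha b hb
    have e1 := hinvZ r hr a ha
    have e2 := hinvZ r hr b hb
    have e3 := hinvZ r hr _ (Z.mul_mem ha hb)
    have e4 : r * (a * b) * r⁻¹ = (r * a * r⁻¹) * (r * b * r⁻¹) := by group
    rw [e3, e1, e2, ← mul_inv_rev] at e4
    exact inv_injective e4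
  · obtain ⟨r, hr⟩ := hne
    refine Nat.card_congr
      { toFun := fun z => ⟨r * z.1, hrz r hr z.1 z.2⟩
        invFun := fun s => ⟨r * s.1, hRR r hr s.1 s.2⟩
        left_inv := ?_
        right_inv := ?_ }
    · intro z
      apply Subtype.ext
      change r * (r * z.1) = z.1
      rw [← mul_assoc, h2 r hr, one_mul]
    · intro s
      apply Subtype.ext
      change r * (r * s.1) = s.1
      rw [← mul_assoc, h2 r hr, one_mul]
  · intro r hr h hh
    have hhR : h ∈ R := by
      by_contra hcon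
      exact hh hcon
    exact hRR h hhR r hr

end Cfsg.Agent.H8B
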