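import Cfsg.Agent.H8B.Base

set_option autoImplicit false

namespace Cfsg.Agent.H8B

theorem field_exists (p f : ℕ) [Fact p.Prime] (hf : f ≠ 0) :
    ∃ (F E : Type) (_ : Field F) (_ : Fintype F) (_ : Field E) (_ : Fintype E) (_ : Algebra F E),
      Module.finrank F E = 2 ∧ Nat.card E = (p ^ f) ^ 2 ∧ CharP E p ∧
      (∀ a : E, Algebra.norm F a = 1 ↔ a ^ (p ^ f + 1) = 1) ∧
      (∀ φ : E ≃ₐ[F] E, (∀ x, φ x = x) ∨ ∀ x, φ x = x ^ (p ^ f)) ∧
      (∃ φ : E ≃ₐ[F] E, ∀ x, φ x = x ^ (p ^ f)) := by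
  let F := GaloisField p f
  let E := FiniteField.Extension F p 2
  have hF : Nat.card F = p ^ f := GaloisField.card p f hf
  have hE : Nat.card E = (p ^ f) ^ 2 := by
    rw [FiniteField.natCard_extension, hF]
  have hq1 : 1 < p ^ f := Nat.one_lt_pow hf (Fact.out : p.Prime).one_lt
  have hdiv : ((p ^ f) ^ 2 - 1) / (p ^ f - 1) = p ^ f + 1 := by
    have : (p ^ f) ^ 2 - 1 = (p ^ f + 1) * (p ^ f - 1) := by
      rw [← Nat.sq_sub_sq (p ^ f) 1, one_pow]
    rw [this]
    exact Nat.mul_div_cancel _ (by omega)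
  refine ⟨F, E, inferInstance, Fintype.ofFinite F, inferInstance, Fintype.ofFinite E,
    inferInstance, FiniteField.finrank_extension F p 2, hE, ?_, ?_, ?_, ?_⟩
  · exact charP_of_injective_algebraMap (algebraMap F E).injective p
  · intro a
    have h := FiniteField.algebraMap_norm_eq_pow (K := F) (K' := E) (x := a)
    rw [hE, hF, hdiv] at h
    rw [← h]
    constructor
    · intro h1
      rw [h1, map_one]
    · intro h1
      apply (algebraMap F E).injective
      rw [h1, map_one]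
  · intro φ
    obtain ⟨i, hi, hφ⟩ := FiniteField.Extension.exists_frob_pow_eq F p 2 φ
    interval_cases i
    · left
      intro x
      rw [← hφ]
      simp
    · right
      intro x
      rw [← hφ, pow_one, FiniteField.Extension.frob_apply, hF]
  · exact ⟨FiniteField.Extension.frob F p 2, fun x => by
      rw [FiniteField.Extension.frob_apply, hF]⟩

theorem semireg_dvd {G X : Type*} [Group G] [MulAction G X]
    (h : ∀ (g : G) (x : X), g • x = x → g = 1) : Nat.card G ∣ Nat.card X := by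
  have h1 : ∀ b : X, MulAction.stabilizer G b = ⊥ := by
    intro b
    rw [eq_bot_iff]
    intro g hg
    exact h g b hg
  rw [Nat.card_congr (MulAction.selfEquivOrbitsQuotientProd h1), Nat.card_prod]
  exact Dvd.intro_left _ rfl

variable {H V : Type*} [Group H] [AddCommGroup V] [DistribMulAction H V]

theorem semireg_sub [Finite V] (Z : Subgroup H)
    (hZ : ∀ z ∈ Z, ∀ v : V, z • v = v → v ≠ 0 → z = 1) (W : AddSubgroup V)
    (hW : ∀ z ∈ Z, ∀ w ∈ W, z • w ∈ W) : ∃ k, Nat.card W = Nat.card Z * k + 1 := by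
  let X : SubMulAction Z V :=
    { carrier := (W : Set V) \ {0}
      smul_mem' := by
        rintro ⟨z, hz⟩ w ⟨hw, hw0⟩
        refine ⟨hW z hz w hw, ?_⟩
        intro h0
        apply hw0
        have h0' : z • w = 0 := h0
        rwa [smul_eq_zero_iff_eq] at h0' }
  have h1 : Nat.card Z ∣ Nat.card X := by
    apply semireg_dvd
    rintro ⟨z, hz⟩ ⟨w, hw, hw0⟩ h
    have h' : z • w = w := congrArg Subtype.val h
    ext
    exact hZ z hz w h' hw0
  have h2 : Nat.card X = ((W : Set V) \ {0}).ncard := rfl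
  have h3 : ((W : Set V) \ {0}).ncard + 1 = (W : Set V).ncard :=
    Set.ncard_sdiff_singleton_add_one W.zero_mem (Set.toFinite _)
  obtain ⟨k, hk⟩ := h1
  refine ⟨k, ?_⟩
  rw [← hk, h2, h3]
  rfl

theorem irr_aux [Finite V] {q : ℕ} (hV : Nat.card V = q ^ 2) (Z : Subgroup H)
    (hZc : Nat.card Z = q + 1)
    (hZ : ∀ z ∈ Z, ∀ v : V, z • v = v → v ≠ 0 → z = 1) (W : AddSubgroup V)
    (hW : ∀ z ∈ Z, ∀ w ∈ W, z • w ∈ W) : W = ⊥ ∨ W = ⊤ := by
  obtain ⟨k, hk⟩ := semireg_sub Z hZ W hW
  have hd : Nat.card W * W.index = q ^ 2 := by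
    rw [← hV]; exact W.card_mul_index
  rw [hZc] at hk
  set w := Nat.card W with hw
  set w' := W.index with hw'
  have hdvd : ((q : ℤ) + 1) ∣ (w' : ℤ) - 1 := by
    refine ⟨(q : ℤ) - 1 - k * w', ?_⟩
    have : ((q : ℤ) + 1) * k * w' + w' = q ^ 2 := by
      have := congrArg (Nat.cast (R := ℤ)) hd
      rw [hk] at this
      push_cast at this
      linarith
    linarith
  obtain ⟨j, hj⟩ := hdvd
  have hw'pos : 1 ≤ w' := by
    rcases Nat.eq_zero_or_pos w' with h | h
    · exfalso
      rw [h, mul_zero] at hd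
      have : Nat.card V ≠ 0 := Nat.card_pos.ne'
      rw [hV, ← hd] at this
      exact this rfl
    · exact h
  rcases Nat.eq_zero_or_pos k with h0 | h0
  · left
    rw [h0, mul_zero, zero_add] at hk
    exact AddSubgroup.eq_bot_of_card_eq _ hk
  · right
    have hj0 : j ≤ 0 := by
      by_contra hcon
      push Not at hcon
      have e1 : (q : ℤ) + 2 ≤ w := by
        rw [hk]; push_cast
        have : (1 : ℤ) ≤ k := by exact_mod_cast h0
        nlinarith
      have e2 : (q : ℤ) + 2 ≤ w' := by nlinarith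
      have e3 : (w : ℤ) * w' = q ^ 2 := by exact_mod_cast hd
      nlinarith
    have : (w' : ℤ) = 1 := by
      have : (1 : ℤ) ≤ w' := by exact_mod_cast hw'pos
      nlinarith
    have : w' = 1 := by exact_mod_cast this
    exact AddSubgroup.index_eq_one.mp this

/-- The endomorphism given by an element. -/
def act (h : H) : AddMonoid.End V := DistribMulAction.toAddMonoidEnd H V h

theorem act_apply (h : H) (v : V) : act h v = h • v := rfl

theorem field_ident [Finite V] {q : ℕ} (hV : Nat.card V = q ^ 2) (hq : 1 < q) (Z : Subgroup H)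
    (hZc : Nat.card Z = q + 1)
    (hZ : ∀ z ∈ Z, ∀ v : V, z • v = v → v ≠ 0 → z = 1)
    (hab : ∀ a ∈ Z, ∀ b ∈ Z, a * b = b * a)
    (E : Type) [Field E] [Fintype E] (hE : Nat.card E = q ^ 2)
    (hfrob : ∀ x y : E, (x + y) ^ q = x ^ q + y ^ q)
    (t : H) (hinv : ∀ z ∈ Z, t * z * t⁻¹ = z⁻¹)
    (v₀ : V) (hv₀ : v₀ ≠ 0) (htv : t • v₀ = v₀) :
    ∃ (ψ : V ≃+ E), (∀ z ∈ Z, ∃ c : E, c ^ (q + 1) = 1 ∧ ∀ v, ψ (z • v) = c * ψ v) ∧
      (∀ c : E, c ^ (q + 1) = 1 → ∃ z ∈ Z, ∀ v, ψ (z • v) = c * ψ v) ∧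
      (∀ v, ψ (t • v) = ψ v ^ q) := by
  classical
  set s : Set (AddMonoid.End V) := act '' (Z : Set H) with hs
  have hcomm : ∀ x ∈ s, ∀ y ∈ s, x * y = y * x := by
    rintro _ ⟨a, ha, rfl⟩ _ ⟨b, hb, rfl⟩
    ext v
    change a • b • v = b • a • v
    rw [smul_smul, smul_smul, hab a ha b hb]
  let A := Subring.closure s
  letI : CommRing A := Subring.closureCommRingOfComm hcomm
  have hAz : ∀ r : A, ∀ z ∈ Z, ∀ v : V, (r : AddMonoid.End V) (z • v) = z • (r : AddMonoid.End V) v := by
    intro r z hz v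
    have hle : A ≤ Subring.centralizer s := by
      rw [Subring.closure_le]
      intro x hx y hy
      exact hcomm y hy x hx
    have h1 := hle r.2 (act z) ⟨z, hz, rfl⟩
    have h2 := congrArg (fun g : AddMonoid.End V => g v) h1
    exact h2.symm
  have hker : ∀ r : A, (∃ v : V, v ≠ 0 ∧ (r : AddMonoid.End V) v = 0) → r = 0 := by
    rintro r ⟨v, hv, hrv⟩
    rcases irr_aux hV Z hZc hZ (AddMonoidHom.ker (r : AddMonoid.End V)) (by
      intro z hz w hw
      have hw' : (r : AddMonoid.End V) w = 0 := hw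
      have := hAz r z hz w
      rw [hw', smul_zero] at this
      exact this) with h | h
    · exfalso
      apply hv
      have : v ∈ AddMonoidHom.ker (r : AddMonoid.End V) := hrv
      rw [h] at this
      simpa using this
    · apply Subtype.ext
      ext w
      have : w ∈ AddMonoidHom.ker (r : AddMonoid.End V) := by rw [h]; trivial
      exact this
  have hone : (1 : A) ≠ 0 := by
    intro h
    have h1 : ((1 : A) : AddMonoid.End V) v₀ = ((0 : A) : AddMonoid.End V) v₀ := by rw [h]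
    exact hv₀ h1
  haveI : Nontrivial A := ⟨⟨1, 0, hone⟩⟩
  haveI : NoZeroDivisors A := by
    constructor
    intro a b hab'
    by_cases hb : b = 0
    · right; exact hb
    · left
      have : ∃ v, (b : AddMonoid.End V) v ≠ 0 := by
        by_contra hcon
        push Not at hcon
        apply hb
        apply Subtype.ext
        ext w
        exact hcon w
      obtain ⟨v, hv⟩ := this
      apply hker
      refine ⟨(b : AddMonoid.End V) v, hv, ?_⟩
      have h1 : ((a * b : A) : AddMonoid.End V) v = ((0 : A) : AddMonoid.End V) v := by rw [hab']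
      exact h1
  haveI : IsDomain A := NoZeroDivisors.to_isDomain A
  -- evaluation at `v₀`
  let ev : A →+ V :=
    { toFun := fun r => (r : AddMonoid.End V) v₀
      map_zero' := rfl
      map_add' := fun a b => rfl }
  have hevinj : Function.Injective ev := by
    rw [injective_iff_map_eq_zero]
    intro r hr
    exact hker r ⟨v₀, hv₀, hr⟩
  haveI : Finite A := Finite.of_injective ev hevinj
  have hevsurj : Function.Surjective ev := by
    rcases irr_aux hV Z hZc hZ (AddMonoidHom.range ev) (by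
      rintro z hz _ ⟨r, rfl⟩
      refine ⟨⟨act z, Subring.subset_closure ⟨z, hz, rfl⟩⟩ * r, ?_⟩
      rfl) with h | h
    · exfalso
      apply hv₀
      have : v₀ ∈ AddMonoidHom.range ev := ⟨1, rfl⟩
      rw [h] at this
      simpa using this
    · exact AddMonoidHom.range_eq_top.mp h
  letI : Fintype A := Fintype.ofFinite A
  letI : Field A := Fintype.fieldOfDomain A
  have hcardA : Nat.card A = q ^ 2 := by
    rw [← hV]; exact Nat.card_congr (Equiv.ofBijective ev ⟨hevinj, hevsurj⟩)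
  have hcc : Fintype.card A = Fintype.card E := by
    rw [Fintype.card_eq_nat_card, Fintype.card_eq_nat_card, hE, hcardA]
  let ρ : A ≃+* E := FiniteField.ringEquivOfCardEq hcc
  let evE : A ≃+ V := AddEquiv.ofBijective ev ⟨hevinj, hevsurj⟩
  let ψ : V ≃+ E := evE.symm.trans ρ.toAddEquiv
  have hψ : ∀ r : A, ψ ((r : AddMonoid.End V) v₀) = ρ r := by
    intro r
    change ρ (evE.symm (evE r)) = ρ r
    rw [AddEquiv.symm_apply_apply]
  have hzmem : ∀ z ∈ Z, act z ∈ A := fun z hz => Subring.subset_closure ⟨z, hz, rfl⟩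
  have hψz : ∀ (z : H) (hz : z ∈ Z) (v : V), ψ (z • v) = ρ ⟨act z, hzmem z hz⟩ * ψ v := by
    intro z hz v
    obtain ⟨r, rfl⟩ := hevsurj v
    have e1 : z • ev r = (((⟨act z, hzmem z hz⟩ : A) * r : A) : AddMonoid.End V) v₀ := rfl
    rw [e1, hψ, map_mul]
    congr 1
    exact (hψ r).symm
  have hψ0 : ψ v₀ = 1 := by
    have := hψ 1
    rw [map_one] at this
    exact this
  have hcz : ∀ (z : H) (hz : z ∈ Z), (ρ ⟨act z, hzmem z hz⟩) ^ (q + 1) = 1 := by
    intro z hz
    rw [← map_pow]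
    have : (⟨act z, hzmem z hz⟩ : A) ^ (q + 1) = 1 := by
      apply Subtype.ext
      have h1 : ((⟨act z, hzmem z hz⟩ : A) ^ (q + 1) : A).1 = (act z : AddMonoid.End V) ^ (q + 1) := rfl
      rw [h1]
      have h2 : (act z : AddMonoid.End V) ^ (q + 1) = act (z ^ (q + 1)) :=
        (map_pow (DistribMulAction.toAddMonoidEnd H V) z (q + 1)).symm
      have h3 : z ^ (q + 1) = 1 := by
        have := pow_card_eq_one' (G := Z) (x := ⟨z, hz⟩)
        rw [hZc] at this
        exact congrArg Subtype.val this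
      rw [h2, h3]
      exact map_one (DistribMulAction.toAddMonoidEnd H V)
    rw [this, map_one]
  have hcinj : ∀ (z : H) (hz : z ∈ Z) (z' : H) (hz' : z' ∈ Z),
      ρ ⟨act z, hzmem z hz⟩ = ρ ⟨act z', hzmem z' hz'⟩ → z = z' := by
    intro z hz z' hz' h
    have h1 := ρ.injective h
    have h2 : act z = act z' := congrArg Subtype.val h1
    have h3 : z • v₀ = z' • v₀ := by
      have := congrArg (fun g : AddMonoid.End V => g v₀) h2
      exact this
    have h4 : z'⁻¹ * z = 1 := by
      apply hZ _ (Z.mul_mem (Z.inv_mem hz') hz) v₀ _ hv₀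
      rw [mul_smul, h3, inv_smul_smul]
    exact (inv_mul_eq_one.mp h4).symm
  refine ⟨ψ, fun z hz => ⟨_, hcz z hz, hψz z hz⟩, ?_, ?_⟩
  · -- surjectivity onto the norm one group
    let T : Finset E := (Polynomial.nthRoots (q + 1) (1 : E)).toFinset
    have hTc : T.card ≤ q + 1 :=
      (Multiset.toFinset_card_le _).trans (Polynomial.card_nthRoots _ _)
    have hT : ∀ c : E, c ∈ T ↔ c ^ (q + 1) = 1 := by
      intro c
      rw [Multiset.mem_toFinset, Polynomial.mem_nthRoots (Nat.succ_pos q)]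
    haveI : Finite Z := Nat.finite_of_card_ne_zero (by rw [hZc]; omega)
    letI : Fintype Z := Fintype.ofFinite Z
    let g : Z → E := fun z => ρ ⟨act z.1, hzmem z.1 z.2⟩
    have hginj : Function.Injective g := fun z z' h => Subtype.ext (hcinj _ z.2 _ z'.2 h)
    have hsub : (Finset.univ.image g) ⊆ T := by
      intro c hc
      rw [Finset.mem_image] at hc
      obtain ⟨z, -, rfl⟩ := hc
      exact (hT _).mpr (hcz z.1 z.2)
    have hcd : (Finset.univ.image g).card = q + 1 := by
      rw [Finset.card_image_of_injective _ hginj, Finset.card_univ, ← Nat.card_eq_fintype_card, hZc]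
    have heq := Finset.eq_of_subset_of_card_le hsub (by rw [hcd]; exact hTc)
    intro c hc
    have := (hT c).mpr hc
    rw [← heq, Finset.mem_image] at this
    obtain ⟨z, -, hz⟩ := this
    exact ⟨z.1, z.2, fun v => by rw [hψz z.1 z.2, ← hz]⟩
  · have h0q : (0 : E) ^ q = 0 := zero_pow (by omega)
    let W : AddSubgroup V :=
      { carrier := {v | ψ (t • v) = ψ v ^ q}
        zero_mem' := by
          change ψ (t • (0 : V)) = ψ 0 ^ q
          rw [smul_zero, map_zero, h0q]
        add_mem' := by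
          intro a b ha hb
          change ψ (t • (a + b)) = ψ (a + b) ^ q
          have ha' : ψ (t • a) = ψ a ^ q := ha
          have hb' : ψ (t • b) = ψ b ^ q := hb
          rw [smul_add, map_add, map_add, hfrob, ha', hb']
        neg_mem' := by
          intro a ha
          change ψ (t • (-a)) = ψ (-a) ^ q
          have ha' : ψ (t • a) = ψ a ^ q := ha
          rw [smul_neg, map_neg, map_neg, ha']
          have := hfrob (ψ a) (-ψ a)
          rw [add_neg_cancel, h0q] at this
          exact neg_eq_of_add_eq_zero_right this.symm }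
    let C : AddSubgroup V := AddSubgroup.closure ((fun z : H => z • v₀) '' (Z : Set H))
    have hCW : C ≤ W := by
      rw [AddSubgroup.closure_le]
      rintro _ ⟨z, hz, rfl⟩
      change ψ (t • z • v₀) = ψ (z • v₀) ^ q
      have e1 : t • z • v₀ = z⁻¹ • v₀ := by
        have h := hinv z hz
        have h' : t * z = z⁻¹ * t := by rw [← h]; group
        rw [smul_smul, h', mul_smul, htv]
      rw [e1, hψz z⁻¹ (Z.inv_mem hz), hψz z hz, hψ0, mul_one, mul_one]
      have e2 : ρ ⟨act z⁻¹, hzmem z⁻¹ (Z.inv_mem hz)⟩ * ρ ⟨act z, hzmem z hz⟩ = 1 := by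
        rw [← map_mul]
        have : (⟨act z⁻¹, hzmem z⁻¹ (Z.inv_mem hz)⟩ : A) * ⟨act z, hzmem z hz⟩ = 1 := by
          apply Subtype.ext
          ext v
          change z⁻¹ • z • v = v
          rw [inv_smul_smul]
        rw [this, map_one]
      have e3 := hcz z hz
      rw [pow_succ] at e3
      have hne : ρ ⟨act z, hzmem z hz⟩ ≠ 0 := by
        intro h0
        rw [h0, mul_zero] at e2
        exact zero_ne_one e2
      exact mul_right_cancel₀ hne (e2.trans e3.symm)
    have hCtop : C = ⊤ := by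
      rcases irr_aux hV Z hZc hZ C (by
        intro z hz w hw
        refine AddSubgroup.closure_induction (p := fun w _ => z • w ∈ C) ?_ ?_ ?_ ?_ hw
        · rintro _ ⟨z', hz', rfl⟩
          exact AddSubgroup.subset_closure ⟨z * z', Z.mul_mem hz hz', mul_smul z z' v₀⟩
        · rw [smul_zero]; exact C.zero_mem
        · intro a b _ _ ha hb
          rw [smul_add]; exact C.add_mem ha hb
        · intro a _ ha
          rw [smul_neg]; exact C.neg_mem ha) with h | h
      · exfalso
        apply hv₀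
        have : v₀ ∈ C := AddSubgroup.subset_closure ⟨1, Z.one_mem, one_smul H v₀⟩
        rw [h] at this
        simpa using this
      · exact h
    intro v
    have : v ∈ C := by rw [hCtop]; trivial
    exact hCW this

/-- The second alternative, for the linear part. -/
def FieldCase (H V : Type*) [Group H] [AddCommGroup V] [DistribMulAction H V] : Prop :=
  ∃ (F E : Type) (_ : Field F) (_ : Fintype F) (_ : Field E) (_ : Fintype E) (_ : Algebra F E)
    (ψ : V ≃+ E), Module.finrank F E = 2 ∧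
      (∀ h : H, ∃ (a : E) (φ : E ≃ₐ[F] E), Algebra.norm F a = 1 ∧ ∀ v, ψ (h • v) = a * φ (ψ v)) ∧
      (∀ (a : E) (φ : E ≃ₐ[F] E), Algebra.norm F a = 1 → ∃ h : H, ∀ v, ψ (h • v) = a * φ (ψ v))

theorem card_eq_pow [Finite V] {p : ℕ} (hp : p.Prime) (hpV : ∀ v : V, p • v = 0) :
    ∃ n, Nat.card V = p ^ n := by
  haveI : Fact p.Prime := ⟨hp⟩
  letI : Module (ZMod p) V := AddCommGroup.zmodModule hpV
  exact ⟨Module.finrank (ZMod p) V, (FiniteField.pow_finrank_eq_natCard p V).symm⟩

theorem field_main [Finite V] {p q : ℕ} (hp : p.Prime) (hpV : ∀ v : V, p • v = 0)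
    (hV : Nat.card V = q ^ 2) (hq : 1 < q) (Z : Subgroup H)
    (hZc : Nat.card Z = q + 1)
    (hZ : ∀ z ∈ Z, ∀ v : V, z • v = v → v ≠ 0 → z = 1)
    (hab : ∀ a ∈ Z, ∀ b ∈ Z, a * b = b * a)
    (t : H) (hidx : ∀ h, h ∉ Z → h * t ∈ Z) (ht2 : t * t = 1)
    (hinv : ∀ z ∈ Z, t * z * t⁻¹ = z⁻¹)
    (v₀ : V) (hv₀ : v₀ ≠ 0) (htv : t • v₀ = v₀) : FieldCase H V := by
  haveI : Fact p.Prime := ⟨hp⟩
  obtain ⟨n, hn⟩ := card_eq_pow hp hpV
  have hqd : q ∣ p ^ n := by rw [← hn, hV]; exact dvd_pow_self q two_ne_zero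
  obtain ⟨f, -, hf⟩ := (Nat.dvd_prime_pow hp).mp hqd
  have hf0 : f ≠ 0 := by
    rintro rfl
    rw [pow_zero] at hf
    omega
  obtain ⟨F, E, iF, iFF, iE, iEF, iA, hfr, hE, hchar, hnorm, hφ, ⟨φ₁, hφ₁⟩⟩ :=
    field_exists p f hf0
  rw [← hf] at hE hnorm hφ hφ₁
  haveI := hchar
  have hfrob : ∀ x y : E, (x + y) ^ q = x ^ q + y ^ q := by
    intro x y
    rw [hf]
    exact add_pow_char_pow x y p f
  obtain ⟨ψ, h1, h2, h3⟩ := field_ident hV hq Z hZc hZ hab E hE hfrob t hinv v₀ hv₀ htv
  refine ⟨F, E, iF, iFF, iE, iEF, iA, ψ, hfr, ?_, ?_⟩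
  · intro h
    by_cases hh : h ∈ Z
    · obtain ⟨c, hc, hcv⟩ := h1 h hh
      exact ⟨c, AlgEquiv.refl, (hnorm c).mpr hc, hcv⟩
    · obtain ⟨c, hc, hcv⟩ := h1 _ (hidx h hh)
      refine ⟨c, φ₁, (hnorm c).mpr hc, fun v => ?_⟩
      have e1 : h • v = (h * t) • t • v := by
        rw [smul_smul, mul_assoc, ht2, mul_one]
      rw [e1, hcv, h3, hφ₁]
  · intro a φ ha
    obtain ⟨z, hz, hzv⟩ := h2 a ((hnorm a).mp ha)
    rcases hφ φ with h | h
    · exact ⟨z, fun v => by rw [hzv, h]⟩
    · exact ⟨z * t, fun v => by rw [mul_smul, hzv, h3, h]⟩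

end Cfsg.Agent.H8B
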