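import Cfsg.Agent.H8B.Dih

set_option autoImplicit false

namespace Cfsg.Agent.H8B

variable {H V : Type*} [Group H] [AddCommGroup V] [DistribMulAction H V]

theorem ne_card [Finite V] (W : AddSubgroup V) :
    Nat.card {v : V // v ∈ W ∧ v ≠ 0} + 1 = Nat.card W := by
  have h2 : Nat.card {v : V // v ∈ W ∧ v ≠ 0} = ((W : Set V) \ {0}).ncard := rfl
  have h3 : ((W : Set V) \ {0}).ncard + 1 = (W : Set V).ncard :=
    Set.ncard_sdiff_singleton_add_one W.zero_mem (Set.toFinite _)
  rw [h2, h3]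
  rfl

theorem sum_inj {A B : AddSubgroup V} (h : ∀ x ∈ A, x ∈ B → x = 0) :
    Function.Injective (fun z : A × B => (z.1 : V) + (z.2 : V)) := by
  rintro ⟨a, b⟩ ⟨a', b'⟩ hab
  simp only at hab
  have e : (a : V) - a' = b' - b := by
    rw [sub_eq_sub_iff_add_eq_add, hab, add_comm]
  have h1 : (a : V) - a' = 0 := h _ (A.sub_mem a.2 a'.2) (by rw [e]; exact B.sub_mem b'.2 b.2)
  have h2 : (b' : V) - b = 0 := by rw [← e, h1]
  have e1 : a = a' := Subtype.ext (sub_eq_zero.mp h1)
  have e2 : b = b' := Subtype.ext (sub_eq_zero.mp h2).symm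
  rw [e1, e2]

theorem sum_le [Finite V] {A B : AddSubgroup V} (h : ∀ x ∈ A, x ∈ B → x = 0) :
    Nat.card A * Nat.card B ≤ Nat.card V := by
  rw [← Nat.card_prod]
  exact Nat.card_le_card_of_injective _ (sum_inj h)

theorem sum_surj [Finite V] {A B : AddSubgroup V} (h : ∀ x ∈ A, x ∈ B → x = 0)
    (hc : Nat.card A * Nat.card B = Nat.card V) (v : V) :
    ∃ a ∈ A, ∃ b ∈ B, v = a + b := by
  have hb := (Nat.bijective_iff_injective_and_card _).mpr
    ⟨sum_inj h, by rw [Nat.card_prod, hc]⟩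
  obtain ⟨⟨a, b⟩, hab⟩ := hb.2 v
  exact ⟨a, a.2, b, b.2, hab.symm⟩

theorem sum_card [Finite V] {A B : AddSubgroup V} (h : ∀ x ∈ A, x ∈ B → x = 0)
    (hs : ∀ v : V, ∃ a ∈ A, ∃ b ∈ B, v = a + b) :
    Nat.card A * Nat.card B = Nat.card V := by
  rw [← Nat.card_prod]
  refine Nat.card_congr (Equiv.ofBijective _ ⟨sum_inj h, fun v => ?_⟩)
  obtain ⟨a, ha, b, hb, rfl⟩ := hs v
  exact ⟨(⟨a, ha⟩, ⟨b, hb⟩), rfl⟩

/-- The fixed space of one element. -/
def fixE (V : Type*) [AddCommGroup V] [DistribMulAction H V] (t : H) : AddSubgroup V where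
  carrier := {v | t • v = v}
  zero_mem' := smul_zero t
  add_mem' := by
    intro a b ha hb
    change t • (a + b) = a + b
    rw [smul_add, show t • a = a from ha, show t • b = b from hb]
  neg_mem' := by
    intro a ha
    change t • (-a) = -a
    rw [smul_neg, show t • a = a from ha]

theorem mem_fixE {t : H} {v : V} : v ∈ fixE V t ↔ t • v = v := Iff.rfl

theorem two_of_neg {p : ℕ} (hp : p.Prime) (hpV : ∀ v : V, p • v = 0) {w : V} (hw : w ≠ 0)
    (h : -w = w) : p = 2 := by
  have h2 : 2 • w = 0 := by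
    rw [two_nsmul]
    nth_rewrite 1 [← h]
    exact neg_add_cancel w
  have h3 := addOrderOf_dvd_of_nsmul_eq_zero h2
  haveI : Fact p.Prime := ⟨hp⟩
  have h4 : addOrderOf w = p := addOrderOf_eq_prime_iff.mpr ⟨hpV w, hw⟩
  rw [h4] at h3
  exact (Nat.prime_dvd_prime_iff_eq hp Nat.prime_two).mp h3

theorem fin_case [Finite H] [Finite V] [FaithfulSMul H V] (hB : Bin H V) {p q : ℕ}
    (hp : p.Prime) (hpV : ∀ v : V, p • v = 0) (hV : Nat.card V = q ^ 2) (hq : 1 < q)
    (hst : ∀ v : V, v ≠ 0 → ∃ t : H, t ≠ 1 ∧ t • v = v ∧ ∀ h : H, h • v = v → h = 1 ∨ h = t)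
    (hcard : ∀ t : H, t ≠ 1 → (∃ v : V, v ≠ 0 ∧ t • v = v) → Nat.card (fixE V t) = q)
    (hsq : ∀ h : H, h * h ≠ 1 → ∀ v : V, v ≠ 0 → (h * h) • v ≠ v) : FieldCase H V := by
  classical
  let R : Set H := {h | h ≠ 1 ∧ ∃ v : V, v ≠ 0 ∧ h • v = v}
  -- stabilizers
  have hstR : ∀ r ∈ R, ∀ v : V, v ≠ 0 → r • v = v → ∀ h : H, h • v = v → h = 1 ∨ h = r := by
    intro r hr v hv hrv h hh
    obtain ⟨t, ht1, htv, ht⟩ := hst v hv
    have hrt : r = t := by
      rcases ht r hrv with e | e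
      · exact absurd e hr.1
      · exact e
    rw [hrt]
    exact ht h hh
  have h2 : ∀ r ∈ R, r * r = 1 := by
    intro r hr
    obtain ⟨hr1, v, hv, hrv⟩ := id hr
    rcases hstR r hr v hv hrv (r * r) (by rw [mul_smul, hrv, hrv]) with e | e
    · exact e
    · exfalso
      apply hr1
      exact mul_eq_left.mp e
  have hdisj : ∀ r ∈ R, ∀ s ∈ R, r ≠ s → ∀ x : V, r • x = x → s • x = x → x = 0 := by
    intro r hr s hs hrs x hrx hsx
    by_contra hx
    rcases hstR r hr x hx hrx s hsx with e | e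
    · exact hs.1 e
    · exact hrs e.symm
  have hinv : ∀ h : H, h * h ≠ 1 → ∀ r ∈ R, r * h * r = h⁻¹ := by
    intro h hh r hr
    obtain ⟨hr1, v, hv, hrv⟩ := id hr
    obtain ⟨g, hg1, hg2⟩ := bin_inv hB h v
    rcases hstR r hr v hv hrv g hg1 with e | e
    · exfalso
      apply hsq h hh v hv
      rw [e, one_smul] at hg2
      rw [mul_smul, hg2, smul_inv_smul]
    · subst e
      have e1 : (h * g * h) • v = v := by
        rw [mul_smul, mul_smul, hg2, smul_inv_smul]
      rcases hstR g hr v hv hrv _ e1 with e | e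
      · exfalso
        apply hsq h hh v hv
        have e2 : h * h = g⁻¹ := by
          have : g = h⁻¹ * h⁻¹ := by
            rw [← mul_right_inj h, ← mul_left_inj h, e]
            group
          rw [this, mul_inv_rev, inv_inv]
        rw [e2, inv_smul_eq_iff, hrv]
      · calc g * h * g = h⁻¹ * (h * g * h) * g := by group
          _ = h⁻¹ * (g * g) := by rw [e]; group
          _ = h⁻¹ := by rw [h2 g hr, mul_one]
  have hRR : ∀ r ∈ R, ∀ s ∈ R, r * s ∉ R := by
    intro r hr s hs hrs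
    have hne : r ≠ s := by
      rintro rfl
      exact hrs.1 (h2 r hr)
    have hcomm : r * s = s * r := by
      have := h2 _ hrs
      calc r * s = (r * s)⁻¹ := (inv_eq_of_mul_eq_one_left this).symm
        _ = s⁻¹ * r⁻¹ := mul_inv_rev r s
        _ = s * r := by
          rw [inv_eq_of_mul_eq_one_left (h2 r hr), inv_eq_of_mul_eq_one_left (h2 s hs)]
    have hneg1 : ∀ x : V, s • x = x → r • x = -x := by
      intro x hx
      have h3 : x + r • x = 0 := by
        apply hdisj r hr s hs hne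
        · rw [smul_add, smul_smul, h2 r hr, one_smul, add_comm]
        · rw [smul_add, smul_smul, ← hcomm, mul_smul, hx]
      exact (neg_eq_of_add_eq_zero_right h3).symm
    have hneg2 : ∀ x : V, r • x = x → s • x = -x := by
      intro x hx
      have h3 : x + s • x = 0 := by
        apply hdisj r hr s hs hne
        · rw [smul_add, smul_smul, hcomm, mul_smul, hx]
        · rw [smul_add, smul_smul, h2 s hs, one_smul, add_comm]
      exact (neg_eq_of_add_eq_zero_right h3).symm
    have hall : ∀ x : V, (r * s) • x = -x := by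
      intro x
      obtain ⟨a, ha, b, hb, rfl⟩ := sum_surj (A := fixE V r) (B := fixE V s)
        (fun x hx hx' => hdisj r hr s hs hne x hx hx')
        (by rw [hcard r hr.1 hr.2, hcard s hs.1 hs.2, hV, sq]) x
      rw [mem_fixE] at ha hb
      rw [smul_add, mul_smul, mul_smul, hb, hneg2 a ha, hneg1 b hb, smul_neg, ha, neg_add]
    obtain ⟨w, hw, hrw⟩ := hrs.2
    have hp2 := two_of_neg hp hpV hw (by rw [← hall w, hrw])
    apply hrs.1
    apply FaithfulSMul.eq_of_smul_eq_smul (α := V)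
    intro x
    rw [hall, one_smul]
    have := hpV x
    rw [hp2, two_nsmul] at this
    exact neg_eq_of_add_eq_zero_left this
  have hm : ∀ a : H, a * a = 1 → a ≠ 1 → a ∉ R → ∀ r ∈ R, a * r ∈ R ∧ r * a ∈ R := by
    intro a ha ha1 haR r hr
    have haneg : ∀ x : V, a • x = -x := by
      intro x
      have h3 : x + a • x = 0 := by
        by_contra hcon
        exact haR ⟨ha1, x + a • x, hcon, by rw [smul_add, smul_smul, ha, one_smul, add_comm]⟩
      exact (neg_eq_of_add_eq_zero_right h3).symm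
    have hex : ∃ y : V, r • y ≠ y := by
      by_contra hcon
      push Not at hcon
      apply hr.1
      apply FaithfulSMul.eq_of_smul_eq_smul (α := V)
      intro x
      rw [hcon, one_smul]
    obtain ⟨y, hy⟩ := hex
    have hx0 : y - r • y ≠ 0 := fun h => hy (sub_eq_zero.mp h).symm
    have hx : r • (y - r • y) = -(y - r • y) := by
      rw [smul_sub, smul_smul, h2 r hr, one_smul]; abel
    refine ⟨⟨?_, y - r • y, hx0, ?_⟩, ⟨?_, y - r • y, hx0, ?_⟩⟩
    · intro h
      apply haR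
      have : a = r := by
        calc a = a * r * r := by rw [mul_assoc, h2 r hr, mul_one]
          _ = r := by rw [h, one_mul]
      rw [this]; exact hr
    · rw [mul_smul, hx, smul_neg, haneg, neg_neg]
    · intro h
      apply haR
      have : a = r := by
        calc a = r * (r * a) := by rw [← mul_assoc, h2 r hr, one_mul]
          _ = r := by rw [h, mul_one]
      rw [this]; exact hr
    · rw [mul_smul, haneg, smul_neg, hx, neg_neg]
  have hVne : ∃ v : V, v ≠ 0 := by
    by_contra hcon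
    push Not at hcon
    have : Subsingleton V := ⟨fun a b => by rw [hcon a, hcon b]⟩
    have h1 : Nat.card V = 1 := Nat.card_unique
    rw [hV] at h1
    nlinarith
  obtain ⟨v₀, hv₀⟩ := hVne
  obtain ⟨t, ht1, htv, -⟩ := hst v₀ hv₀
  have htR : t ∈ R := ⟨ht1, v₀, hv₀, htv⟩
  obtain ⟨Z, hZ, hinvZ, hab, hZR, hidx⟩ := dih R (fun h => h.1 rfl) h2 hinv hRR hm ⟨t, htR⟩
  -- counting
  have hRc : Nat.card R = q + 1 := by
    letI : Fintype R := Fintype.ofFinite R
    have e1 : Nat.card {v : V // v ∈ (⊤ : AddSubgroup V) ∧ v ≠ 0} + 1 = q ^ 2 := by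
      rw [ne_card, ← hV]
      exact Nat.card_congr AddSubgroup.topEquiv.toEquiv
    have e2 : Nat.card {v : V // v ∈ (⊤ : AddSubgroup V) ∧ v ≠ 0} =
        Nat.card (Σ r : R, {v : V // v ∈ fixE V r.1 ∧ v ≠ 0}) := by
      refine (Nat.card_congr (Equiv.ofBijective
        (fun z : (Σ r : R, {v : V // v ∈ fixE V r.1 ∧ v ≠ 0}) =>
          (⟨z.2.1, trivial, z.2.2.2⟩ : {v : V // v ∈ (⊤ : AddSubgroup V) ∧ v ≠ 0})) ⟨?_, ?_⟩)).symm
      · rintro ⟨⟨r, hr⟩, ⟨v, hv, hv0⟩⟩ ⟨⟨r', hr'⟩, ⟨v', hv', hv0'⟩⟩ h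
        have h' : v = v' := congrArg Subtype.val h
        subst h'
        have : r = r' := by
          by_contra hcon
          exact hv0 (hdisj r hr r' hr' hcon v hv hv')
        subst this
        rfl
      · rintro ⟨v, -, hv⟩
        obtain ⟨r, hr1, hrv, -⟩ := hst v hv
        exact ⟨⟨⟨r, hr1, v, hv, hrv⟩, ⟨v, hrv, hv⟩⟩, rfl⟩
    have e3 : ∀ r : R, Nat.card {v : V // v ∈ fixE V r.1 ∧ v ≠ 0} = q - 1 := by
      intro r
      have := ne_card (fixE V r.1)
      rw [hcard r.1 r.2.1 r.2.2] at this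
      omega
    rw [e2, Nat.card_sigma] at e1
    simp only [e3, Finset.sum_const, Finset.card_univ, smul_eq_mul,
      ← Nat.card_eq_fintype_card] at e1
    obtain ⟨k, rfl⟩ : ∃ k, q = k + 1 := ⟨q - 1, by omega⟩
    simp only [Nat.add_sub_cancel] at e1
    have hk : 0 < k := by omega
    have : Nat.card R * k = (k + 2) * k := by nlinarith
    have := Nat.eq_of_mul_eq_mul_right hk this
    omega
  rw [hRc] at hZR
  refine field_main hp hpV hV hq Z hZR ?_ hab t (hidx t htR) (h2 t htR) (hinvZ t htR) v₀ hv₀ htv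
  intro z hz v hzv hv
  by_contra hz1
  exact (hZ z).mp hz ⟨hz1, v, hv, hzv⟩

end Cfsg.Agent.H8B
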