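import Cfsg.Agent.H8B.Two2

set_option autoImplicit false

namespace Cfsg.Agent.H8B

variable {H V : Type*} [Group H] [AddCommGroup V] [DistribMulAction H V]

namespace PairS

variable {t s : H}

/-- squares never are involutions of the class. -/
theorem sq_not [Finite H] [Finite V] (hP : PairS H V t s) {h r : H} (hh : InK V t s h)
    (hh1 : h * h ≠ 1) (hr : TT V r) (hrK : InK V t s r) : h * r ≠ r * h := by
  intro hcom
  rcases hP.cent hr hrK hh hcom with e | e
  · apply hh1
    rw [e, one_mul]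
  · apply hh1
    rw [e]; exact hP.sq hr

theorem inverts [Finite H] [Finite V] (hP : PairS H V t s) {h r : H} (hh : InK V t s h)
    (hh1 : h * h ≠ 1) (hr : TT V r) (hrK : InK V t s r) : r * h * r = h⁻¹ := by
  obtain ⟨v, hrv, hv⟩ := hP.moved hr hrK
  obtain ⟨g, hg1, hg2, hg3⟩ := K_inv hP.bin {z : V | t • z = z ∧ s • z = z} (h := h)
    (fun z hz => hh z hz.1 hz.2) v
  have hgK : InK V t s g := fun z h1 h2 => hg1 z ⟨h1, h2⟩
  have hne := hP.sq_not hh hh1 hr hrK
  rcases hP.K18' hr hrK hrv hv hgK hg2 with e | e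
  · exfalso
    rw [e, one_smul] at hg3
    have h1 : (h * h) • v = v := by rw [mul_smul, hg3, smul_inv_smul]
    rcases hP.K18' hr hrK hrv hv (hh.mul hh) h1 with e' | e'
    · exact hh1 e'
    · apply hne
      rw [← e', mul_assoc]
  · subst e
    have h1 : (h * g * h) • v = v := by rw [mul_smul, mul_smul, hg3, smul_inv_smul]
    rcases hP.K18' hr hrK hrv hv ((hh.mul hgK).mul hh) h1 with e' | e'
    · exfalso
      apply hne
      have h2 : g = h⁻¹ * h⁻¹ := by
        calc g = h⁻¹ * (h * g * h) * h⁻¹ := by group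
          _ = h⁻¹ * h⁻¹ := by rw [e', mul_one]
      rw [h2]; group
    · calc g * h * g = h⁻¹ * (h * g * h) * g := by group
        _ = h⁻¹ * (g * g) := by rw [e', mul_assoc]
        _ = h⁻¹ := by rw [hP.sq hr, mul_one]

/-- The odd part of `K`. -/
theorem oddpart [Finite H] [Finite V] (hP : PairS H V t s) :
    ∃ F : Subgroup H, (∀ f, f ∈ F ↔ InK V t s f ∧ ¬ TT V f) ∧
      (∀ r, TT V r → InK V t s r → ∀ f ∈ F, r * f * r⁻¹ = f⁻¹) ∧ ¬ 2 ∣ Nat.card F ∧
      t * s ∈ F := by
  classical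
  let K := fixingSubgroup H {z : V | t • z = z ∧ s • z = z}
  have hK : ∀ k : H, k ∈ K ↔ InK V t s k := by
    intro k
    rw [mem_fixingSubgroup_iff]
    exact ⟨fun h z h1 h2 => h z ⟨h1, h2⟩, fun h z hz => h z hz.1 hz.2⟩
  let R : Set K := {r | TT V (r : H)}
  have hprod : ∀ r s' : H, TT V r → InK V t s r → TT V s' → InK V t s s' → ¬ TT V (r * s') := by
    intro r s' hr hrK hs' hsK h
    have h1 := hP.sq h
    have hcom : s' * r = r * s' := by
      symm
      calc r * s' = (r * s')⁻¹ := (inv_eq_of_mul_eq_one_left h1).symm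
        _ = s'⁻¹ * r⁻¹ := mul_inv_rev r s'
        _ = s' * r := by
          rw [inv_eq_of_mul_eq_one_left (hP.sq hr), inv_eq_of_mul_eq_one_left (hP.sq hs')]
    rcases hP.cent hr hrK hsK hcom with e | e
    · exact hs'.1 e
    · rw [e] at h
      exact h.1 (hP.sq hr)
  obtain ⟨Z, h1, h2, -, -, -⟩ := dih R (fun h => h.1 rfl)
    (fun r hr => Subtype.ext (hP.sq hr))
    (fun h hh r hr => by
      apply Subtype.ext
      exact hP.inverts ((hK _).mp h.2) (fun e => hh (Subtype.ext e)) hr ((hK _).mp r.2))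
    (fun r hr s' hs' => hprod r s' hr ((hK _).mp r.2) hs' ((hK _).mp s'.2))
    (fun a ha ha1 haR r hr => by
      exfalso
      apply haR
      exact hP.invol ((hK _).mp a.2) (fun e => ha1 (Subtype.ext e)) (congrArg Subtype.val ha))
    ⟨⟨t, (hK t).mpr InK.left⟩, hP.ht⟩
  have hmem : ∀ f, f ∈ Z.map K.subtype ↔ InK V t s f ∧ ¬ TT V f := by
    intro f
    rw [Subgroup.mem_map]
    constructor
    · rintro ⟨z, hz, rfl⟩
      exact ⟨(hK _).mp z.2, (h1 z).mp hz⟩
    · rintro ⟨hf1, hf2⟩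
      exact ⟨⟨f, (hK f).mpr hf1⟩, (h1 _).mpr hf2, rfl⟩
  refine ⟨Z.map K.subtype, hmem, ?_, ?_, ?_⟩
  · intro r hr hrK f hf
    obtain ⟨z, hz, rfl⟩ := Subgroup.mem_map.mp hf
    have := h2 ⟨r, (hK r).mpr hrK⟩ hr z hz
    exact congrArg Subtype.val this
  · intro h2d
    haveI : Fact (Nat.Prime 2) := ⟨Nat.prime_two⟩
    obtain ⟨x, hx⟩ := exists_prime_orderOf_dvd_card' 2 h2d
    have hxx : x * x = 1 := by
      rw [← _root_.sq, ← hx]; exact pow_orderOf_eq_one x
    have hx1 : x ≠ 1 := by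
      rintro rfl
      rw [orderOf_one] at hx
      omega
    have h3 := (hmem x.1).mp x.2
    exact h3.2 (hP.invol h3.1 (fun e => hx1 (Subtype.ext e)) (congrArg Subtype.val hxx))
  · rw [hmem]
    exact ⟨InK.left.mul InK.right, hprod t s hP.ht InK.left hP.hs InK.right⟩

theorem key [Finite H] [Finite V] (hP : PairS H V t s)
    (hirr : ∀ W : AddSubgroup V, (∀ h : H, ∀ w ∈ W, h • w ∈ W) → W = ⊥ ∨ W = ⊤)
    {g₀ : H} (hs : s = g₀ * t * g₀⁻¹) : ∀ z : V, t • z = z → s • z = z → z = 0 := by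
  classical
  intro z htz hsz
  by_contra hz
  obtain ⟨F, hF, hFinv, hFodd, htsF⟩ := hP.oddpart
  letI : Fintype F := Fintype.ofFinite F
  let N : V → V := fun v => ∑ f : F, (f : H) • v
  have hNadd : ∀ v w, N (v + w) = N v + N w := by
    intro v w
    change ∑ f : F, (f : H) • (v + w) = _
    simp only [smul_add]
    rw [Finset.sum_add_distrib]
  have hNfix : ∀ (f : F) (v : V), (f : H) • N v = N v := by
    intro f v
    change (f : H) • (∑ f : F, (f : H) • v) = ∑ f : F, (f : H) • v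
    rw [Finset.smul_sum]
    exact Fintype.sum_equiv (Equiv.mulLeft f) _ _ (fun h => by
      rw [Equiv.coe_mulLeft, Subgroup.coe_mul, mul_smul])
  have hNZ : ∀ v : V, t • N v = N v ∧ s • N v = N v := by
    intro v
    by_contra hcon
    obtain ⟨r, hr1, hr2, hr3⟩ := hP.K15 hcon
    have h1 := hNfix ⟨t * s, htsF⟩ v
    have h2 := (hF _).mp htsF
    rcases hP.K18' hr1 hr2 hr3 hcon h2.1 h1 with e | e
    · apply hP.hnc
      have h3 : t = s⁻¹ := eq_inv_of_mul_eq_one_left e
      rw [h3, inv_mul_cancel, mul_inv_cancel]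
    · apply h2.2
      rw [e]; exact hr1
  have hNP : ∀ r, TT V r → InK V t s r → ∀ a : V, N (r • a + a) = 0 := by
    intro r hr hrK a
    rw [hNadd]
    have h1 : N (r • a) = r • N a := by
      change ∑ f : F, (f : H) • r • a = r • (∑ f : F, (f : H) • a)
      rw [Finset.smul_sum]
      refine Fintype.sum_equiv (Equiv.inv F) _ _ (fun f => ?_)
      rw [Equiv.inv_apply, Subgroup.coe_inv, smul_smul, smul_smul]
      have h2 := hFinv r hr hrK (f : H)⁻¹ (F.inv_mem f.2)
      rw [inv_inv, mul_inv_eq_iff_eq_mul] at h2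
      rw [h2]
    rw [h1, hrK _ (hNZ a).1 (hNZ a).2, hP.two]
  have hNz : ∀ z : V, t • z = z → s • z = z → N z = z := by
    intro z h1 h2
    change ∑ f : F, (f : H) • z = z
    have h3 : ∀ f : F, (f : H) • z = z := fun f => ((hF _).mp f.2).1 z h1 h2
    rw [Finset.sum_congr rfl (fun f _ => h3 f), Finset.sum_const, Finset.card_univ]
    rw [← Nat.card_eq_fintype_card]
    obtain ⟨m, hm⟩ : ∃ m, Nat.card F = 2 * m + 1 := ⟨Nat.card F / 2, by omega⟩
    rw [hm, add_smul, mul_comm, mul_smul, two_smul, hP.two, smul_zero, one_smul, zero_add]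
  -- distinct conjugates of `t` do not commute
  have h19 : ∀ g : H, t * (g * t * g⁻¹) = (g * t * g⁻¹) * t → g * t * g⁻¹ = t := by
    intro g hg
    exact hP.K17 (hP.ht.conj g).1 (hP.E7 hP.ht g hg).2
  have h19' : ∀ c d : H, (c * t * c⁻¹) * (d * t * d⁻¹) = (d * t * d⁻¹) * (c * t * c⁻¹) →
      d * t * d⁻¹ = c * t * c⁻¹ := by
    intro c d hcd
    have h1 := h19 (c⁻¹ * d) (by
      calc t * (c⁻¹ * d * t * (c⁻¹ * d)⁻¹)
          = c⁻¹ * ((c * t * c⁻¹) * (d * t * d⁻¹)) * c := by group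
        _ = c⁻¹ * ((d * t * d⁻¹) * (c * t * c⁻¹)) * c := by rw [hcd]
        _ = c⁻¹ * d * t * (c⁻¹ * d)⁻¹ * t := by group)
    calc d * t * d⁻¹ = c * (c⁻¹ * d * t * (c⁻¹ * d)⁻¹) * c⁻¹ := by group
      _ = c * t * c⁻¹ := by rw [h1]
  -- a conjugate moving `z`
  have hex : ∃ c : H, (c * t * c⁻¹) • z ≠ z := by
    by_contra hcon
    push Not at hcon
    let W : AddSubgroup V :=
      { carrier := {v | ∀ c : H, (c * t * c⁻¹) • v = v}
        zero_mem' := fun c => smul_zero _
        add_mem' := by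
          intro a b ha hb c
          rw [smul_add, ha c, hb c]
        neg_mem' := by
          intro a ha c
          rw [smul_neg, ha c] }
    rcases hirr W (by
      intro h w hw c
      have h1 := hw (h⁻¹ * c)
      have h2 : c * t * c⁻¹ = h * (h⁻¹ * c * t * (h⁻¹ * c)⁻¹) * h⁻¹ := by group
      rw [h2, mul_smul, mul_smul, inv_smul_smul, h1]) with h | h
    · apply hz
      have : z ∈ W := hcon
      rw [h] at this
      simpa using this
    · apply hP.ht.1
      apply hP.faith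
      intro v
      have : v ∈ W := by rw [h]; trivial
      have h1 := this 1
      simpa using h1
  obtain ⟨c, hc⟩ := hex
  set r := c * t * c⁻¹ with hr
  have hrT : TT V r := hP.ht.conj c
  have hPr : PairS H V t r :=
    { toTwoS := hP.toTwoS
      ht := hP.ht
      hs := hrT
      hc := smul_card_fixE t c
      hnc := by
        intro h
        apply hc
        rw [hr, h19 c h, htz] }
  have hPr' : PairS H V s r :=
    { toTwoS := hP.toTwoS
      ht := hP.hs
      hs := hrT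
      hc := by rw [hP.hc]; exact smul_card_fixE t c
      hnc := by
        intro h
        apply hc
        rw [hs] at h
        have := h19' g₀ c h
        rw [hr, this, ← hs, hsz] }
  obtain ⟨a, y, hy, hza⟩ := hPr.L1 z
  obtain ⟨b, y', hy', hzb⟩ := hPr'.L1 z
  have hAB : (t • a + a) + (s • b + b) = y + y' := by
    have h1 : (t • a + a) + y + ((s • b + b) + y') = 0 := by
      rw [← hza, ← hzb, hP.two]
    have h2 : (t • a + a) + (s • b + b) + (y + y') = 0 := by rw [← h1]; abel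
    exact hP.cancel h2
  have hrAB : r • ((t • a + a) + (s • b + b)) = (t • a + a) + (s • b + b) := by
    rw [hAB, smul_add, hy, hy']
  have hAB0 : (t • a + a) + (s • b + b) ≠ 0 := by
    intro h0
    have h1 := hP.cancel h0
    by_cases hA : t • a + a = 0
    · apply hc
      rw [hA, zero_add] at hza
      rw [hza, hy]
    · apply hP.hnc
      rw [hP.E2 hP.ht hP.hs hA h1]
  have hNAB : N ((t • a + a) + (s • b + b)) = 0 := by
    rw [hNadd, hNP t hP.ht InK.left, hNP s hP.hs InK.right, add_zero]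
  have hABZ : ¬ (t • ((t • a + a) + (s • b + b)) = (t • a + a) + (s • b + b) ∧
      s • ((t • a + a) + (s • b + b)) = (t • a + a) + (s • b + b)) := by
    rintro ⟨h1, h2⟩
    rw [hNz _ h1 h2] at hNAB
    exact hAB0 hNAB
  obtain ⟨r₁, hr1, hr2, hr3⟩ := hP.K15 hABZ
  obtain ⟨c₁, hc1, hc2⟩ := hP.K14' hr1 hr2
  set v := (t • a + a) + (s • b + b) with hv
  obtain ⟨a', z', h1, h2, h3⟩ := hP.L2 (v := c₁ • v) (by
    rw [← hc2, mul_smul, mul_smul, inv_smul_smul, hr3])
  have h4 : v = (r₁ • (c₁⁻¹ • a') + c₁⁻¹ • a') + z' := by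
    have h5 : v = c₁⁻¹ • c₁ • v := (inv_smul_smul _ _).symm
    rw [h5, h3, smul_add, smul_add, hc1.inv z' h1 h2, ← hc2, mul_smul, mul_smul, inv_smul_smul]
  have h5 : z' = 0 := by
    rw [h4, hNadd, hNP r₁ hr1 hr2, zero_add, hNz z' h1 h2] at hNAB
    exact hNAB
  rw [h5, add_zero] at h4
  have h6 : r * r₁ = r₁ * r := by
    apply hP.E5 hr1 (a := c₁⁻¹ • a')
    · rw [← h4]; exact hAB0
    · rw [← h4]; exact hrAB
  have h7 : r₁ = c₁⁻¹ * t * c₁⁻¹⁻¹ := by rw [← hc2]; group
  have h8 : r = r₁ := by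
    rw [h7]
    apply h19' c₁⁻¹ c
    rw [← h7, ← hr, h6]
  apply hc
  rw [h8]
  exact hr2 z htz hsz

end PairS

theorem two_main [Finite H] [Finite V] [FaithfulSMul H V] (hB : Bin H V)
    (hV2 : ∀ v : V, 2 • v = 0)
    (hirr : ∀ W : AddSubgroup V, (∀ h : H, ∀ w ∈ W, h • w ∈ W) → W = ⊥ ∨ W = ⊤)
    (hH : ∃ h : H, h ≠ 1) : FieldCase H V := by
  classical
  have hS : TwoS H V :=
    { bin := hB
      two := fun v => by rw [← two_nsmul]; exact hV2 v
      faith := fun h hh => FaithfulSMul.eq_of_smul_eq_smul (α := V) (fun x => by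
        rw [hh, one_smul]) }
  obtain ⟨h₀, hh₀⟩ := hH
  obtain ⟨t, ht, -⟩ := exists_TT (V := V) hh₀
  have hex : ∃ g : H, t * (g * t * g⁻¹) ≠ (g * t * g⁻¹) * t := by
    by_contra hcon
    push Not at hcon
    rcases hirr (fixE V t) (by
      intro h w hw
      rw [mem_fixE] at hw ⊢
      have h1 := (hS.E7 ht h (hcon h)).1
      apply h1
      rw [mul_smul, mul_smul, inv_smul_smul, hw]) with h | h
    · obtain ⟨v, hv⟩ := hS.exists_moved ht.1
      apply hv
      have h1 : t • v + v ∈ fixE V t := hS.comm_fixed ht v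
      rw [h] at h1
      exact hS.cancel (by simpa using h1)
    · apply ht.1
      apply hS.faith
      intro v
      have : v ∈ fixE V t := by rw [h]; trivial
      exact this
  obtain ⟨g, hg⟩ := hex
  have hP : PairS H V t (g * t * g⁻¹) :=
    { toTwoS := hS
      ht := ht
      hs := ht.conj g
      hc := smul_card_fixE t g
      hnc := hg }
  have hZ := hP.key hirr rfl
  set s := g * t * g⁻¹ with hs
  have hK : ∀ k : H, InK V t s k := by
    intro k z h1 h2
    rw [hZ z h1 h2, smul_zero]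
  have hPeq : fixE V t = PP V t := by
    apply le_antisymm
    · intro v hv
      obtain ⟨a, z, h1, h2, rfl⟩ := hP.L2 hv
      rw [hZ z h1 h2, add_zero]
      exact ⟨a, rfl⟩
    · rintro _ ⟨a, rfl⟩
      exact hS.comm_fixed ht a
  have hcard := hS.card_fix_PP t
  rw [← hPeq, ← sq] at hcard
  have hq1 : 1 < Nat.card (fixE V t) := by
    obtain ⟨v, hv⟩ := hS.exists_moved ht.1
    have : Nontrivial (fixE V t) := ⟨⟨⟨t • v + v, hS.comm_fixed ht v⟩, 0, by
      intro h
      exact hv (hS.cancel (congrArg Subtype.val h))⟩⟩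
    exact Finite.one_lt_card
  have hnz : ∀ v : V, v ≠ 0 → ¬ (t • v = v ∧ s • v = v) := fun v hv h => hv (hZ v h.1 h.2)
  refine fin_case hB Nat.prime_two hV2 hcard.symm hq1 ?_ ?_ ?_
  · intro v hv
    obtain ⟨r, hr1, hr2, hr3⟩ := hP.K15 (hnz v hv)
    exact ⟨r, hr1.1, hr3, fun h hh => hP.K18' hr1 hr2 hr3 (hnz v hv) (hK h) hh⟩
  · rintro t' ht' ⟨v, hv, htv⟩
    obtain ⟨r, hr1, hr2, hr3⟩ := hP.K15 (hnz v hv)
    rcases hP.K18' hr1 hr2 hr3 (hnz v hv) (hK t') htv with e | e
    · exact absurd e ht'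
    · obtain ⟨k, -, hk⟩ := hP.K14' hr1 hr2
      rw [e, ← hk]
      exact (smul_card_fixE r k).symm
  · intro h hh v hv hhv
    obtain ⟨r, hr1, hr2, hr3⟩ := hP.K15 (hnz v hv)
    rcases hP.K18' hr1 hr2 hr3 (hnz v hv) (hK (h * h)) hhv with e | e
    · exact hh e
    · apply hP.sq_not (hK h) hh hr1 hr2
      rw [← e, mul_assoc]

end Cfsg.Agent.H8B
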