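import Cfsg.Agent.H8B.Odd5
import Cfsg.Agent.H8B.Two3

set_option autoImplicit false

namespace Cfsg.Agent.H8B

theorem abs_main {H V : Type*} [Group H] [AddCommGroup V] [DistribMulAction H V]
    [Finite H] [Finite V] [FaithfulSMul H V] (hB : Bin H V)
    (hirr : ∀ W : AddSubgroup V, (∀ h : H, ∀ w ∈ W, h • w ∈ W) → W = ⊥ ∨ W = ⊤)
    (hV : ∃ v : V, v ≠ 0) : PrimeCase H V ∨ FieldCase H V := by
  classical
  -- elementary abelian
  have hne : Nat.card V ≠ 1 := by
    intro h
    obtain ⟨v, hv⟩ := hV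
    have := (Nat.card_eq_one_iff_unique.mp h).1
    exact hv (Subsingleton.elim v 0)
  obtain ⟨p, hp, hpd⟩ := Nat.exists_prime_and_dvd hne
  haveI : Fact p.Prime := ⟨hp⟩
  obtain ⟨v₁, hv₁⟩ := exists_prime_addOrderOf_dvd_card' p hpd
  have hpV : ∀ v : V, p • v = 0 := by
    let W : AddSubgroup V :=
      { carrier := {v | p • v = 0}
        zero_mem' := smul_zero p
        add_mem' := by
          intro a b ha hb
          change p • (a + b) = 0
          rw [smul_add, show p • a = 0 from ha, show p • b = 0 from hb, add_zero]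
        neg_mem' := by
          intro a ha
          change p • (-a) = 0
          rw [smul_neg, show p • a = 0 from ha, neg_zero] }
    rcases hirr W (by
      intro h w hw
      change p • (h • w) = 0
      rw [smul_comm, show p • w = 0 from hw, smul_zero]) with h | h
    · exfalso
      have h1 : v₁ ∈ W := by
        change p • v₁ = 0
        rw [← hv₁]; exact addOrderOf_nsmul_eq_zero v₁
      rw [h] at h1
      have h2 : v₁ = 0 := by simpa using h1
      rw [h2, addOrderOf_zero] at hv₁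
      exact hp.one_lt.ne hv₁
    · intro v
      have : v ∈ W := by rw [h]; trivial
      exact this
  by_cases hH : ∃ h : H, h ≠ 1
  · by_cases hp2 : p = 2
    · right
      subst hp2
      exact two_main hB hpV hirr hH
    · exact odd_main hB hp hp2 hpV hirr hV hH
  · push Not at hH
    left
    refine ⟨prime_of_simple hp hpV hV (fun W => hirr W (fun h w hw => by
      rw [hH h, one_smul]; exact hw)), ?_⟩
    haveI : Subsingleton H := ⟨fun a b => by rw [hH a, hH b]⟩
    rw [Nat.card_unique]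
    omega

section transfer

variable {G Ω V : Type*} [Group G] [MulAction G Ω] [AddCommGroup V] {ω₀ : Ω}
  [DistribMulAction (MulAction.stabilizer G ω₀) V]

theorem bin_of [Finite V] (e : V ≃ Ω) (τ : V → G) (h0 : e 0 = ω₀)
    (hτ : ∀ v w : V, τ v • e w = e (v + w))
    (he : ∀ (h : MulAction.stabilizer G ω₀) (v : V), (h : G) • e v = e (h • v))
    (hbin : ∀ (n : ℕ) (I J : Fin n → Ω), 2 ≤ n →
      (∀ i j : Fin n, i ≠ j → ∃ g : G, g • I i = J i ∧ g • I j = J j) →
        ∃ g : G, ∀ i, g • I i = J i) :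
    Bin (MulAction.stabilizer G ω₀) V := by
  classical
  intro S h1 h2
  rcases S.eq_empty_or_nonempty with rfl | ⟨x₀, hx₀⟩
  · exact ⟨1, fun x hx => absurd hx (Set.notMem_empty x)⟩
  letI : Fintype (Option S) := Fintype.ofFinite _
  let eqv : Fin (Fintype.card (Option S)) ≃ Option S := (Fintype.equivFin _).symm
  let I' : Option S → Ω := fun a => Option.elim a (e 0) (fun x => e x.1.1)
  let J' : Option S → Ω := fun a => Option.elim a (e 0) (fun x => e x.1.2)
  have hn : 2 ≤ Fintype.card (Option S) := by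
    have : Nontrivial (Option S) := ⟨⟨none, some ⟨x₀, hx₀⟩, by simp⟩⟩
    exact Fintype.one_lt_card
  have hone : ∀ x ∈ S, ∃ g : G, g • e 0 = e 0 ∧ g • e x.1 = e x.2 := by
    intro x hx
    obtain ⟨h, hh⟩ := h1 x hx
    exact ⟨h, by rw [he, smul_zero], by rw [he, hh]⟩
  have htwo : ∀ x ∈ S, ∀ y ∈ S, ∃ g : G, g • e x.1 = e x.2 ∧ g • e y.1 = e y.2 := by
    intro x hx y hy
    obtain ⟨h, hh⟩ := h2 x hx y hy
    refine ⟨τ (x.2 - h • x.1) * h, ?_, ?_⟩
    · rw [mul_smul, he, hτ, sub_add_cancel]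
    · rw [mul_smul, he, hτ]
      congr 1
      rw [smul_sub] at hh
      have : x.2 - h • x.1 + h • y.1 = x.2 - (h • x.1 - h • y.1) := by abel
      rw [this, hh]; abel
  obtain ⟨g, hg⟩ := hbin (Fintype.card (Option S)) (fun i => I' (eqv i)) (fun i => J' (eqv i)) hn
    (by
      intro i j _
      change ∃ g : G, g • I' (eqv i) = J' (eqv i) ∧ g • I' (eqv j) = J' (eqv j)
      rcases eqv i with _ | x
      · rcases eqv j with _ | y
        · exact ⟨1, one_smul _ _, one_smul _ _⟩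
        · exact hone y.1 y.2
      · rcases eqv j with _ | y
        · obtain ⟨g, h3, h4⟩ := hone x.1 x.2
          exact ⟨g, h4, h3⟩
        · exact htwo x.1 x.2 y.1 y.2)
  have hg' : ∀ a : Option S, g • I' a = J' a := by
    intro a
    have := hg (eqv.symm a)
    simpa using this
  have hg0 : g • e 0 = e 0 := hg' none
  refine ⟨⟨g, by rw [MulAction.mem_stabilizer_iff, ← h0]; exact hg0⟩, fun x hx => ?_⟩
  apply e.injective
  rw [← he]
  exact hg' (some ⟨x, hx⟩)

theorem irr_of [hprim : MulAction.IsPreprimitive G Ω] (e : V ≃ Ω) (τ : V → G) (h0 : e 0 = ω₀)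
    (hτ : ∀ v w : V, τ v • e w = e (v + w))
    (he : ∀ (h : MulAction.stabilizer G ω₀) (v : V), (h : G) • e v = e (h • v))
    (hdec : ∀ g : G, ∃ (v : V) (h : MulAction.stabilizer G ω₀), ∀ w : V, g • e w = e (v + h • w))
    (W : AddSubgroup V) (hW : ∀ h : MulAction.stabilizer G ω₀, ∀ w ∈ W, h • w ∈ W) :
    W = ⊥ ∨ W = ⊤ := by
  have hblock : MulAction.IsBlock G (e '' (W : Set V)) := by
    rw [MulAction.isBlock_iff_smul_eq_or_disjoint]
    intro g
    obtain ⟨v, h, hg⟩ := hdec g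
    by_cases hv : v ∈ W
    · left
      ext x
      constructor
      · rintro ⟨_, ⟨w, hw, rfl⟩, rfl⟩
        change g • e w ∈ _
        rw [hg]
        exact ⟨_, W.add_mem hv (hW h w hw), rfl⟩
      · rintro ⟨w, hw, rfl⟩
        refine ⟨e (h⁻¹ • (w - v)), ⟨_, hW _ _ (W.sub_mem hw hv), rfl⟩, ?_⟩
        change g • e _ = e w
        rw [hg, smul_inv_smul]
        congr 1
        abel
    · right
      rw [Set.disjoint_left]
      rintro _ ⟨_, ⟨w, hw, rfl⟩, rfl⟩ ⟨w', hw', hww⟩
      simp only at hww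
      rw [hg] at hww
      have h1 := e.injective hww
      apply hv
      have : v = w' - h • w := by rw [h1]; abel
      rw [this]
      exact W.sub_mem hw' (hW h w hw)
  rcases MulAction.IsPreprimitive.isTrivialBlock_of_isBlock hblock with h | h
  · left
    rw [eq_bot_iff]
    intro w hw
    have h1 := h ⟨w, hw, rfl⟩ ⟨0, W.zero_mem, rfl⟩
    have h2 := e.injective h1
    rw [h2]
    exact AddSubgroup.zero_mem _
  · right
    rw [eq_top_iff]
    intro w _
    have : e w ∈ e '' (W : Set V) := by rw [h]; trivial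
    obtain ⟨w', hw', hww⟩ := this
    rw [← e.injective hww]
    exact hw'

theorem dec_of (e : V ≃ Ω) (τ : V → G) (h0 : e 0 = ω₀)
    (hτ : ∀ v w : V, τ v • e w = e (v + w))
    (he : ∀ (h : MulAction.stabilizer G ω₀) (v : V), (h : G) • e v = e (h • v)) (g : G) :
    ∃ (v : V) (h : MulAction.stabilizer G ω₀), ∀ w : V, g • e w = e (v + h • w) := by
  obtain ⟨v, hv⟩ := e.surjective (g • e 0)
  have h1 : (τ v)⁻¹ * g ∈ MulAction.stabilizer G ω₀ := by
    rw [MulAction.mem_stabilizer_iff, ← h0, mul_smul, ← hv, inv_smul_eq_iff, hτ, add_zero]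
  refine ⟨v, ⟨_, h1⟩, fun w => ?_⟩
  rw [← hτ, ← he]
  change _ = τ v • ((τ v)⁻¹ * g) • e w
  rw [mul_smul, smul_inv_smul]

theorem final_of [Fintype Ω] [Finite G] [Finite V] [FaithfulSMul G Ω]
    [hprim : MulAction.IsPreprimitive G Ω] (e : V ≃ Ω) (τ : V → G) (h0 : e 0 = ω₀)
    (hτ : ∀ v w : V, τ v • e w = e (v + w))
    (he : ∀ (h : MulAction.stabilizer G ω₀) (v : V), (h : G) • e v = e (h • v))
    (hV : ∃ v : V, v ≠ 0)
    (hbin : ∀ (n : ℕ) (I J : Fin n → Ω), 2 ≤ n →
      (∀ i j : Fin n, i ≠ j → ∃ g : G, g • I i = J i ∧ g • I j = J j) →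
        ∃ g : G, ∀ i, g • I i = J i) :
    ((Fintype.card Ω).Prime ∧ ∀ ω : Ω, Nat.card ↥(MulAction.stabilizer G ω) ≤ 2) ∨
    (∃ (F E : Type) (_ : Field F) (_ : Fintype F) (_ : Field E) (_ : Fintype E) (_ : Algebra F E) (e : Ω ≃ E),
        Module.finrank F E = 2 ∧
        ∀ σ : Equiv.Perm Ω, σ ∈ (MulAction.toPermHom G Ω).range ↔
          ∃ (a b : E) (φ : E ≃ₐ[F] E), Algebra.norm F a = 1 ∧ ∀ ω : Ω, e (σ ω) = a * φ (e ω) + b) := by
  have hdec := dec_of e τ h0 hτ he
  haveI : FaithfulSMul (MulAction.stabilizer G ω₀) V := by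
    constructor
    intro a b hab
    apply Subtype.ext
    apply FaithfulSMul.eq_of_smul_eq_smul (α := Ω)
    intro ω
    obtain ⟨v, rfl⟩ := e.surjective ω
    rw [he, he, hab]
  rcases abs_main (bin_of e τ h0 hτ he hbin) (irr_of e τ h0 hτ he hdec) hV with h | h
  · left
    obtain ⟨h1, h2⟩ := h
    refine ⟨?_, fun ω => ?_⟩
    · rw [← Nat.card_eq_fintype_card, ← Nat.card_congr e]
      exact h1
    · obtain ⟨v, rfl⟩ := e.surjective ω
      have h3 : e v = τ v • ω₀ := by rw [← h0, hτ, add_zero]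
      rw [← Nat.card_congr (MulAction.stabilizerEquivStabilizer h3).toEquiv]
      exact h2
  · right
    obtain ⟨F, E, iF, iFF, iE, iEF, iA, ψ, hfr, hψ1, hψ2⟩ := h
    refine ⟨F, E, iF, iFF, iE, iEF, iA, e.symm.trans ψ.toEquiv, hfr, fun σ => ⟨?_, ?_⟩⟩
    · rintro ⟨g, rfl⟩
      obtain ⟨v, h, hg⟩ := hdec g
      obtain ⟨a, φ, ha, haφ⟩ := hψ1 h
      refine ⟨a, ψ v, φ, ha, fun ω => ?_⟩
      obtain ⟨w, rfl⟩ := e.surjective ω
      change ψ (e.symm (g • e w)) = a * φ (ψ (e.symm (e w))) + ψ v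
      rw [hg, e.symm_apply_apply, e.symm_apply_apply, map_add, haφ, add_comm]
    · rintro ⟨a, b, φ, ha, hσ⟩
      obtain ⟨h, hh⟩ := hψ2 a φ ha
      refine ⟨τ (ψ.symm b) * h, ?_⟩
      ext ω
      apply (e.symm.trans ψ.toEquiv).injective
      rw [hσ]
      obtain ⟨w, rfl⟩ := e.surjective ω
      change ψ (e.symm ((τ (ψ.symm b) * (h : G)) • e w)) = a * φ (ψ (e.symm (e w))) + b
      rw [mul_smul, he, hτ, e.symm_apply_apply, e.symm_apply_apply, map_add, hh,
        AddEquiv.apply_symm_apply, add_comm]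

end transfer

end Cfsg.Agent.H8B
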