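import Cfsg.Agent.H8B.Fin

set_option autoImplicit false

namespace Cfsg.Agent.H8B

variable {H V : Type*} [Group H] [AddCommGroup V] [DistribMulAction H V]

theorem two_zero {p : ℕ} (hp : p.Prime) (hp2 : p ≠ 2) (hpV : ∀ v : V, p • v = 0) {v : V}
    (h : v + v = 0) : v = 0 := by
  by_contra hv
  exact hp2 (two_of_neg hp hpV hv (neg_eq_of_add_eq_zero_left h))

/-- A unipotent element gives a vector of depth two. -/
theorem depth_two [FaithfulSMul H V] {p : ℕ} (hp : p.Prime) (hpV : ∀ v : V, p • v = 0)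
    {k : H} (hk1 : k ≠ 1) (hkp : k ^ p = 1) : ∃ w : V, k • w - w ≠ 0 ∧ k • (k • w - w) = k • w - w := by
  haveI : Fact p.Prime := ⟨hp⟩
  have hVne : ∃ v : V, k • v ≠ v := by
    by_contra hcon
    push Not at hcon
    apply hk1
    apply FaithfulSMul.eq_of_smul_eq_smul (α := V)
    intro x
    rw [hcon, one_smul]
  obtain ⟨v₁, hv₁⟩ := hVne
  have hv₀ : ∃ v : V, v ≠ 0 := ⟨v₁, by
    rintro rfl
    exact hv₁ (smul_zero k)⟩
  obtain ⟨v₀, hv₀⟩ := hv₀
  haveI : CharP (AddMonoid.End V) p := by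
    constructor
    intro n
    constructor
    · intro h
      have h1 : ((n : AddMonoid.End V)) v₀ = 0 := by rw [h]; rfl
      rw [AddMonoid.End.natCast_apply] at h1
      have h2 := addOrderOf_dvd_of_nsmul_eq_zero h1
      rwa [addOrderOf_eq_prime (hpV v₀) hv₀] at h2
    · rintro ⟨m, rfl⟩
      ext v
      rw [AddMonoid.End.natCast_apply, mul_comm, mul_smul, hpV, smul_zero]
      rfl
  let N : AddMonoid.End V := act k - 1
  have hN : ∀ v, N v = k • v - v := fun v => rfl
  have hNp : N ^ p = 0 := by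
    have : N ^ p = (act k) ^ p - 1 ^ p := sub_pow_char_of_commute p (Commute.one_right (act k : AddMonoid.End V))
    rw [this, one_pow, sub_eq_zero]
    have h2 : (act k : AddMonoid.End V) ^ p = act (k ^ p) :=
      (map_pow (DistribMulAction.toAddMonoidEnd H V) k p).symm
    rw [h2, hkp]
    exact map_one (DistribMulAction.toAddMonoidEnd H V)
  classical
  have hex : ∃ m, N ^ m = 0 := ⟨p, hNp⟩
  set m := Nat.find hex with hm
  have hm0 : N ^ m = 0 := Nat.find_spec hex
  have hm2 : 2 ≤ m := by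
    rcases Nat.lt_or_ge m 2 with h | h
    · exfalso
      interval_cases hmm : m
      · rw [pow_zero] at hm0
        have : (1 : AddMonoid.End V) v₀ = 0 := by rw [hm0]; rfl
        exact hv₀ this
      · rw [pow_one] at hm0
        apply hv₁
        have : N v₁ = 0 := by rw [hm0]; rfl
        rw [hN] at this
        exact sub_eq_zero.mp this
    · exact h
  obtain ⟨m', hm'⟩ : ∃ m', m = m' + 2 := ⟨m - 2, by omega⟩
  have hne : N ^ (m' + 1) ≠ 0 := Nat.find_min hex (by omega)
  have : ∃ v, (N ^ (m' + 1)) v ≠ 0 := by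
    by_contra hcon
    push Not at hcon
    apply hne
    ext v
    exact hcon v
  obtain ⟨v, hv⟩ := this
  refine ⟨(N ^ m') v, ?_, ?_⟩
  · rw [← hN]
    rw [pow_succ'] at hv
    exact hv
  · rw [← sub_eq_zero, ← hN, ← hN]
    have : N (N ((N ^ m') v)) = (N ^ (m' + 2)) v := by
      rw [pow_succ', pow_succ']
      rfl
    rw [this, ← hm', hm0]
    rfl

theorem odd_coprime [FaithfulSMul H V] [Finite H] (hB : Bin H V) {p : ℕ} (hp : p.Prime)
    (hp2 : p ≠ 2) (hpV : ∀ v : V, p • v = 0) : ¬ p ∣ Nat.card H := by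
  intro hd
  haveI : Fact p.Prime := ⟨hp⟩
  obtain ⟨k, hk⟩ := exists_prime_orderOf_dvd_card' p hd
  have hk1 : k ≠ 1 := by
    rintro rfl
    rw [orderOf_one] at hk
    exact hp.one_lt.ne hk
  have hkp : k ^ p = 1 := by rw [← hk]; exact pow_orderOf_eq_one k
  obtain ⟨w, hw1, hw2⟩ := depth_two hp hpV hk1 hkp
  obtain ⟨g, hg1, hg2⟩ := bin_swap hB (v := w) (w := k • w) ⟨k, rfl⟩
  have h3 := bin_K3 hB (k := k) (y := -(w + w)) (w := k • w - w) hw2 ⟨g, by
    rw [smul_sub, hg1, hg2, smul_neg, smul_add]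
    abel⟩
  apply hw1
  apply two_zero hp hp2 hpV
  rw [smul_neg, smul_add] at h3
  have h4 : k • w + k • w = w + w := neg_injective h3
  have : k • w - w + (k • w - w) = (k • w + k • w) - (w + w) := by abel
  rw [this, h4, sub_self]

/-- The reflection in the fixed space of the whole group. -/
theorem odd_refl [Finite H] (hB : Bin H V) {p : ℕ} (hp : p.Prime)
    (hpV : ∀ v : V, p • v = 0) (hcop : ¬ p ∣ Nat.card H) :
    ∃ s : H, ∀ (v : V) (h : H), h • (s • v + v) = s • v + v := by
  classical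
  letI : Fintype H := Fintype.ofFinite H
  have hc : Nat.Coprime (Nat.card H) p := (Nat.Prime.coprime_iff_not_dvd hp).mpr hcop |>.symm
  obtain ⟨m, -, hm⟩ := Nat.exists_mul_mod_eq_one_of_coprime hc hp.one_lt
  have hmn : ∀ v : V, (Nat.card H * m) • v = v := by
    intro v
    conv_lhs => rw [← Nat.div_add_mod (Nat.card H * m) p, hm]
    rw [add_smul, one_smul, mul_smul, hpV, zero_add]
  let σ : V → V := fun v => ∑ h : H, h • v
  have hσ : ∀ (g : H) (v : V), g • σ v = σ v := by
    intro g v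
    change g • (∑ h : H, h • v) = ∑ h : H, h • v
    rw [Finset.smul_sum]
    exact Fintype.sum_equiv (Equiv.mulLeft g) _ _ (fun h => by
      rw [Equiv.coe_mulLeft, mul_smul])
  have hσadd : ∀ v w : V, σ (v - w) = σ v - σ w := by
    intro v w
    change ∑ h : H, h • (v - w) = (∑ h : H, h • v) - ∑ h : H, h • w
    rw [← Finset.sum_sub_distrib]
    exact Finset.sum_congr rfl (fun h _ => smul_sub _ _ _)
  have hσfix : ∀ v : V, (∀ h : H, h • v = v) → σ v = Nat.card H • v := by
    intro v hv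
    change ∑ h : H, h • v = _
    rw [Finset.sum_congr rfl (fun h _ => hv h), Finset.sum_const, Finset.card_univ,
      Nat.card_eq_fintype_card]
  let e : V → V := fun v => m • σ v
  have he : ∀ (g : H) (v : V), g • e v = e v := by
    intro g v
    change g • (m • σ v) = m • σ v
    rw [smul_comm, hσ]
  have hesub : ∀ v w : V, e (v - w) = e v - e w := by
    intro v w
    change m • σ (v - w) = m • σ v - m • σ w
    rw [hσadd, smul_sub]
  have hefix : ∀ v : V, (∀ h : H, h • v = v) → e v = v := by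
    intro v hv
    change m • σ v = v
    rw [hσfix v hv, smul_smul, mul_comm, hmn]
  -- each vector is conjugate to its reflection
  have hconj : ∀ v : V, ∃ h : H, h • v = e v + e v - v := by
    intro v
    set v₁ := v - e v with hv₁
    have hev₁ : e v₁ = 0 := by
      rw [hv₁, hesub, hefix (e v) (fun h => he h v), sub_self]
    have hσv₁ : σ v₁ = 0 := by
      rw [← hmn (σ v₁), mul_smul]
      change Nat.card H • e v₁ = 0
      rw [hev₁, smul_zero]
    obtain ⟨k, hk⟩ := bin_aff hB (Set.range (fun h : H => (h • v₁, -(h • v₁))))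
      (by
        rintro _ ⟨a, rfl⟩ _ ⟨b, rfl⟩
        obtain ⟨g, hg1, hg2⟩ := bin_swap hB (v := a • v₁) (w := b • v₁)
          ⟨b * a⁻¹, by rw [mul_smul, inv_smul_smul]⟩
        refine ⟨g, ?_⟩
        simp only
        rw [smul_sub, hg1, hg2]
        abel)
    have hk1 : ∀ h : H, k • h • v₁ + h • v₁ = k • v₁ + v₁ := by
      intro h
      have h1 := hk _ ⟨h, rfl⟩ _ ⟨1, rfl⟩
      simp only [one_smul] at h1
      rw [smul_sub] at h1
      have h2 : k • h • v₁ = k • v₁ + (-(h • v₁) - -v₁) := by rw [← h1]; abel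
      rw [h2]; abel
    have hc0 : k • v₁ + v₁ = 0 := by
      have h1 : ∑ h : H, (k • h • v₁ + h • v₁) = Nat.card H • (k • v₁ + v₁) := by
        rw [Finset.sum_congr rfl (fun h _ => hk1 h), Finset.sum_const, Finset.card_univ,
          Nat.card_eq_fintype_card]
      have h2 : ∑ h : H, (k • h • v₁ + h • v₁) = 0 := by
        rw [Finset.sum_add_distrib, ← Finset.smul_sum]
        change k • σ v₁ + σ v₁ = 0
        rw [hσv₁, smul_zero, zero_add]
      rw [h2] at h1
      rw [← hmn (k • v₁ + v₁), mul_comm, mul_smul, ← h1, smul_zero]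
    refine ⟨k, ?_⟩
    have h3 : k • v₁ = -v₁ := eq_neg_of_add_eq_zero_left hc0
    have h4 : v = v₁ + e v := by rw [hv₁]; abel
    calc k • v = k • v₁ + k • e v := by rw [← smul_add, ← h4]
      _ = -v₁ + e v := by rw [h3, he]
      _ = e v + e v - v := by rw [hv₁]; abel
  obtain ⟨s, hs⟩ := hB (Set.range (fun v : V => (v, e v + e v - v)))
    (by
      rintro _ ⟨v, rfl⟩
      exact hconj v)
    (by
      rintro _ ⟨v, rfl⟩ _ ⟨w, rfl⟩
      obtain ⟨h, hh⟩ := hconj (v - w)
      refine ⟨h, ?_⟩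
      simp only
      rw [hh, hesub]
      abel)
  refine ⟨s, fun v h => ?_⟩
  have h1 : s • v = e v + e v - v := hs _ ⟨v, rfl⟩
  rw [h1, sub_add_cancel, smul_add, he]

theorem odd_refl_fix [Finite H] (hB : Bin H V) {p : ℕ} (hp : p.Prime)
    (hpV : ∀ v : V, p • v = 0) (hcop : ¬ p ∣ Nat.card H) (T : Set V) :
    ∃ s : H, s ∈ fixingSubgroup H T ∧
      ∀ (v : V), ∀ h ∈ fixingSubgroup H T, h • (s • v + v) = s • v + v := by
  obtain ⟨s, hs⟩ := odd_refl (bin_fix hB T) hp hpV
    (fun h => hcop (h.trans (Subgroup.card_subgroup_dvd_card _)))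
  exact ⟨s, s.2, fun v h hh => hs v ⟨h, hh⟩⟩

end Cfsg.Agent.H8B
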