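import Cfsg.Agent.H8B.Odd1

set_option autoImplicit false

namespace Cfsg.Agent.H8B

variable {H V : Type*} [Group H] [AddCommGroup V] [DistribMulAction H V]

/-- The situation in odd characteristic. -/
structure OddS (H V : Type*) [Group H] [AddCommGroup V] [DistribMulAction H V] : Prop where
  bin : Bin H V
  two : ∀ v : V, v + v = 0 → v = 0
  half : ∀ v : V, ∃ w : V, v = w + w
  neg : ∃ n : H, ∀ v : V, n • v = -v
  refl : ∀ T : Set V, ∃ s : H, s ∈ fixingSubgroup H T ∧
      ∀ (v : V), ∀ h ∈ fixingSubgroup H T, h • (s • v + v) = s • v + v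

/-- Orthogonality. -/
def Per (H : Type*) {V : Type*} [Group H] [AddCommGroup V] [DistribMulAction H V] (x y : V) : Prop :=
  ∃ h : H, h • (x + y) = x - y

namespace OddS

theorem symm (hO : OddS H V) {x y : V} (h : Per H x y) : Per H y x := by
  obtain ⟨g, hg⟩ := h
  obtain ⟨n, hn⟩ := hO.neg
  refine ⟨n * g, ?_⟩
  rw [mul_smul, add_comm, hg, hn, neg_sub]

theorem self (hO : OddS H V) {x : V} (h : Per H x x) : x = 0 := by
  obtain ⟨g, hg⟩ := h
  rw [sub_self, smul_eq_zero_iff_eq] at hg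
  exact hO.two x hg

theorem tau (hO : OddS H V) (x : V) :
    ∃ t : H, t • x = -x ∧ ∀ y : V, Per H x y ↔ t • y = y := by
  obtain ⟨n, hn⟩ := hO.neg
  obtain ⟨h, hh⟩ := bin_shift hO.bin (x + x)
  have h1 : h • (-x) = x := by
    rw [hh (-x) ⟨n, by rw [hn]; abel⟩]
    abel
  have h2 : h • x = -x := by
    rw [smul_neg] at h1
    exact neg_eq_iff_eq_neg.mp h1
  refine ⟨h, h2, fun y => ⟨?_, ?_⟩⟩
  · rintro ⟨g, hg⟩
    have h3 := hh (y - x) ⟨g⁻¹ * n, by
      rw [mul_smul, hn, neg_sub, inv_smul_eq_iff, show y - x + (x + x) = x + y by abel, hg]⟩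
    rw [smul_sub, h2] at h3
    have h4 : h • y = (h • y - -x) - x := by abel
    rw [h4, h3]
    abel
  · intro hy
    refine ⟨n * h, ?_⟩
    rw [mul_smul, smul_add, h2, hy, hn]
    abel

/-- The orthogonal complement of a set. -/
def pp (hO : OddS H V) (S : Set V) : AddSubgroup V where
  carrier := {y | ∀ s ∈ S, Per H s y}
  zero_mem' := by
    intro s hs
    exact ⟨1, by rw [one_smul, add_zero, sub_zero]⟩
  add_mem' := by
    intro a b ha hb s hs
    obtain ⟨t, -, ht⟩ := hO.tau s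
    rw [ht, smul_add, (ht a).mp (ha s hs), (ht b).mp (hb s hs)]
  neg_mem' := by
    intro a ha s hs
    obtain ⟨t, -, ht⟩ := hO.tau s
    rw [ht, smul_neg, (ht a).mp (ha s hs)]

theorem mem_pp (hO : OddS H V) {S : Set V} {y : V} : y ∈ hO.pp S ↔ ∀ s ∈ S, Per H s y := Iff.rfl

/-- The closure of a set. -/
def cl (hO : OddS H V) (S : Set V) : AddSubgroup V := hO.pp (hO.pp S : Set V)

theorem sub_cl (hO : OddS H V) {S : Set V} {s : V} (hs : s ∈ S) : s ∈ hO.cl S := by
  intro y hy
  exact hO.symm (hy s hs)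

theorem pp_anti (hO : OddS H V) {S T : Set V} (h : ∀ s ∈ S, s ∈ T) : hO.pp T ≤ hO.pp S :=
  fun _ hy s hs => hy s (h s hs)

theorem pp_cl (hO : OddS H V) {S : Set V} : hO.pp (hO.cl S : Set V) = hO.pp S := by
  apply le_antisymm
  · exact hO.pp_anti (fun s hs => hO.sub_cl hs)
  · intro y hy v hv
    exact hO.symm (hv y hy)

theorem cl_mono (hO : OddS H V) {S T : Set V} (h : ∀ t ∈ T, t ∈ hO.cl S) :
    hO.cl T ≤ hO.cl S := by
  apply hO.pp_anti
  intro y hy
  have : y ∈ hO.pp (hO.cl S : Set V) := by rw [hO.pp_cl]; exact hy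
  exact hO.pp_anti h this

/-- The reflection attached to a set. -/
theorem rho (hO : OddS H V) (S : Set V) :
    ∃ r : H, (∀ v : V, r • r • v = v) ∧ (∀ v : V, v ∈ hO.cl S ↔ r • v = v) ∧
      (∀ y : V, y ∈ hO.pp S ↔ r • y = -y) ∧
      (∀ v ∈ hO.cl S, ∀ h ∈ fixingSubgroup H S, h • v = v) := by
  obtain ⟨r, hrS, hr⟩ := hO.refl S
  have hrr : ∀ v : V, r • r • v = v := by
    intro v
    have h1 := hr v r hrS
    rw [smul_add, add_comm] at h1
    exact add_left_cancel h1
  -- (a)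
  have ha : ∀ v : V, r • v = v → ∀ h ∈ fixingSubgroup H S, h • v = v := by
    intro v hv h hh
    have h1 := hr v h hh
    rw [hv, smul_add] at h1
    have h2 : (h • v - v) + (h • v - v) = 0 := by
      have : (h • v - v) + (h • v - v) = (h • v + h • v) - (v + v) := by abel
      rw [this, h1, sub_self]
    exact sub_eq_zero.mp (hO.two _ h2)
  have hb : ∀ c y : V, r • c = c → r • y = -y → Per H c y := by
    intro c y hc hy
    exact ⟨r, by rw [smul_add, hc, hy, sub_eq_add_neg]⟩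
  have hb' : ∀ y : V, r • y = -y → y ∈ hO.pp S := by
    intro y hy s hs
    exact hb s y ((mem_fixingSubgroup_iff H).mp hrS s hs) hy
  have hc : ∀ y : V, y ∈ hO.pp S → r • y = -y := by
    intro y hy
    set c := y + r • y with hcdef
    have hc1 : r • c = c := by rw [hcdef, smul_add, hrr, add_comm]
    have hc2 : c ∈ hO.pp S := by
      have h1 : y - r • y ∈ hO.pp S := hb' _ (by rw [smul_sub, hrr]; abel)
      have h2 : c = y + y - (y - r • y) := by rw [hcdef]; abel
      rw [h2]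
      exact (hO.pp S).sub_mem ((hO.pp S).add_mem hy hy) h1
    obtain ⟨t, ht1, ht2⟩ := hO.tau c
    have ht3 : t ∈ fixingSubgroup H S := by
      rw [mem_fixingSubgroup_iff]
      intro s hs
      exact (ht2 s).mp (hO.symm (hc2 s hs))
    have h3 := ha c hc1 t ht3
    rw [ht1] at h3
    have h4 : c = 0 := hO.two c (by nth_rewrite 1 [← h3]; exact neg_add_cancel c)
    exact eq_neg_of_add_eq_zero_right h4
  have hd1 : ∀ v : V, r • v = v → v ∈ hO.cl S := by
    intro v hv y hy
    exact hO.symm (hb v y hv (hc y hy))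
  have hd2 : ∀ v : V, v ∈ hO.cl S → r • v = v := by
    intro v hv
    set c := v - r • v with hcdef
    have hc1 : r • c = -c := by rw [hcdef, smul_sub, hrr]; abel
    have hc2 : c ∈ hO.cl S := by
      have h1 : v + r • v ∈ hO.cl S := hd1 _ (by rw [smul_add, hrr, add_comm])
      have h2 : c = v + v - (v + r • v) := by rw [hcdef]; abel
      rw [h2]
      exact (hO.cl S).sub_mem ((hO.cl S).add_mem hv hv) h1
    have h3 : c = 0 := hO.self (hc2 c (hb' c hc1))
    exact (sub_eq_zero.mp h3).symm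
  exact ⟨r, hrr, fun v => ⟨hd2 v, hd1 v⟩, fun y => ⟨hc y, hb' y⟩,
    fun v hv h hh => ha v (hd2 v hv) h hh⟩

theorem cl_fixed (hO : OddS H V) {S : Set V} {v : V} (hv : v ∈ hO.cl S) {h : H}
    (hh : ∀ s ∈ S, h • s = s) : h • v = v := by
  obtain ⟨r, -, -, -, hr⟩ := hO.rho S
  exact hr v hv h ((mem_fixingSubgroup_iff H).mpr hh)

theorem disj (hO : OddS H V) {S : Set V} (x : V) (hx : x ∈ hO.cl S) (hx' : x ∈ hO.pp S) :
    x = 0 := hO.self (hx x hx')

theorem decomp (hO : OddS H V) (S : Set V) (v : V) :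
    ∃ a ∈ hO.cl S, ∃ b ∈ hO.pp S, v = a + b := by
  obtain ⟨r, h1, h2, h3, -⟩ := hO.rho S
  obtain ⟨w, rfl⟩ := hO.half v
  refine ⟨w + r • w, (h2 _).mpr ?_, w - r • w, (h3 _).mpr ?_, by abel⟩
  · rw [smul_add, h1, add_comm]
  · rw [smul_sub, h1]; abel

theorem card_mul [Finite V] (hO : OddS H V) (S : Set V) :
    Nat.card (hO.cl S) * Nat.card (hO.pp S) = Nat.card V :=
  sum_card hO.disj (hO.decomp S)

theorem sq_one (hO : OddS H V) {x : V} {h : H} (hh : h • x ∈ hO.cl {x}) {v : V}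
    (hv : v ∈ hO.cl {x}) : h • h • v = v := by
  obtain ⟨g, hg1, hg2⟩ := bin_inv hO.bin h x
  have h1 : g • h • x = h • x := hO.cl_fixed hh (by
    rintro s rfl
    exact hg1)
  rw [h1] at hg2
  rw [smul_smul]
  apply hO.cl_fixed hv
  rintro s rfl
  rw [mul_smul, hg2, smul_inv_smul]

/-- the reflection of a set inside a closed set preserves it. -/
theorem rho_mem (hO : OddS H V) {S T : Set V} (hT : ∀ t ∈ T, t ∈ hO.cl S) {r : H}
    (hr : ∀ v : V, r • r • v = v) (hr2 : ∀ v : V, v ∈ hO.cl T ↔ r • v = v) {u : V}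
    (hu : u ∈ hO.cl S) : r • u ∈ hO.cl S := by
  have h1 : u + r • u ∈ hO.cl T := (hr2 _).mpr (by rw [smul_add, hr, add_comm])
  have h2 := hO.cl_mono hT h1
  have h3 : r • u = (u + r • u) - u := by abel
  rw [h3]
  exact (hO.cl S).sub_mem h2 hu

theorem per_smul {x y : V} (h : Per H x y) (g : H) : Per H (g • x) (g • y) := by
  obtain ⟨k, hk⟩ := h
  refine ⟨g * k * g⁻¹, ?_⟩
  rw [← smul_add, mul_smul, mul_smul, inv_smul_smul, hk, smul_sub]

theorem pp_smul (hO : OddS H V) {x y : V} (g : H) (h : y ∈ hO.pp {x}) : g • y ∈ hO.pp {g • x} := by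
  rintro s rfl
  exact per_smul (h x rfl) g

theorem cl_smul (hO : OddS H V) {x y : V} (g : H) (h : y ∈ hO.cl {x}) : g • y ∈ hO.cl {g • x} := by
  intro z hz
  have h1 : g⁻¹ • z ∈ hO.pp {x} := by
    have := hO.pp_smul g⁻¹ hz
    rwa [inv_smul_smul] at this
  have h2 := per_smul (h _ h1) g
  rwa [smul_inv_smul] at h2

theorem card_cl_smul [Finite V] (hO : OddS H V) (g : H) (x : V) :
    Nat.card (hO.cl {g • x}) = Nat.card (hO.cl {x}) := by
  apply le_antisymm
  · refine Nat.card_le_card_of_injective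
      (fun y : hO.cl {g • x} => (⟨g⁻¹ • y.1, by
        have := hO.cl_smul g⁻¹ y.2
        rwa [inv_smul_smul] at this⟩ : hO.cl {x})) ?_
    intro a b hab
    apply Subtype.ext
    exact (smul_left_cancel_iff g⁻¹).mp (congrArg Subtype.val hab)
  · refine Nat.card_le_card_of_injective
      (fun y : hO.cl {x} => (⟨g • y.1, hO.cl_smul g y.2⟩ : hO.cl {g • x})) ?_
    intro a b hab
    apply Subtype.ext
    exact (smul_left_cancel_iff g).mp (congrArg Subtype.val hab)

end OddS

theorem oddS_mk [Finite H] [Finite V] [FaithfulSMul H V] (hB : Bin H V) {p : ℕ} (hp : p.Prime)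
    (hp2 : p ≠ 2) (hpV : ∀ v : V, p • v = 0) (hfix : ∀ v : V, (∀ h : H, h • v = v) → v = 0) :
    OddS H V where
  bin := hB
  two := fun v => two_zero hp hp2 hpV
  half := by
    have hinj : Function.Injective (fun w : V => w + w) := by
      intro a b hab
      simp only at hab
      apply sub_eq_zero.mp
      apply two_zero hp hp2 hpV
      have : a - b + (a - b) = (a + a) - (b + b) := by abel
      rw [this, hab, sub_self]
    intro v
    obtain ⟨w, hw⟩ := (Finite.injective_iff_surjective.mp hinj) v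
    exact ⟨w, hw.symm⟩
  neg := by
    obtain ⟨s, hs⟩ := odd_refl hB hp hpV (odd_coprime hB hp hp2 hpV)
    exact ⟨s, fun v => eq_neg_of_add_eq_zero_left (hfix _ (hs v))⟩
  refl := odd_refl_fix hB hp hpV (odd_coprime hB hp hp2 hpV)

end Cfsg.Agent.H8B
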