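import Cfsg.Agent.H8B.Odd2

set_option autoImplicit false

namespace Cfsg.Agent.H8B

variable {H V : Type*} [Group H] [AddCommGroup V] [DistribMulAction H V]

theorem sum_le_of [Finite V] {A B C : AddSubgroup V} (hA : A ≤ C) (hB : B ≤ C)
    (h : ∀ x ∈ A, x ∈ B → x = 0) : Nat.card A * Nat.card B ≤ Nat.card C := by
  rw [← Nat.card_prod]
  refine Nat.card_le_card_of_injective
    (fun z : A × B => (⟨(z.1 : V) + (z.2 : V), C.add_mem (hA z.1.2) (hB z.2.2)⟩ : C)) ?_
  intro z z' hzz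
  exact sum_inj h (congrArg Subtype.val hzz)

namespace OddS

theorem index_pp [Finite V] (hO : OddS H V) (S : Set V) :
    (hO.pp S).index = Nat.card (hO.cl S) := by
  have h1 := hO.card_mul S
  have h2 := (hO.pp S).card_mul_index
  rw [← h1, mul_comm] at h2
  exact Nat.eq_of_mul_eq_mul_right Nat.card_pos h2

theorem p4a [Finite V] (hO : OddS H V) {q : ℕ} (hmin : ∀ v : V, v ≠ 0 → q ≤ Nat.card (hO.cl {v}))
    {v b : V} (hv : Nat.card (hO.cl {v}) ≤ q) (hb : Nat.card (hO.cl {b}) ≤ q)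
    (hs : v + b ≠ 0) (hsc : Nat.card (hO.cl {v + b}) ≠ q) : v ∈ hO.cl {v + b} := by
  by_contra hcon
  set Y := hO.pp {v, b} with hY
  set X := hO.cl {v, b} with hX
  have hYv : Y ≤ hO.pp {v} := hO.pp_anti (by
    rintro s rfl
    exact Set.mem_insert _ _)
  have hYb : Y ≤ hO.pp {b} := hO.pp_anti (by
    rintro s rfl
    exact Set.mem_insert_of_mem _ rfl)
  have hYinf : hO.pp {v} ⊓ hO.pp {b} ≤ Y := by
    rintro y ⟨h1, h2⟩ s hs
    rcases hs with rfl | rfl
    · exact h1 _ rfl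
    · exact h2 _ rfl
  have hsX : v + b ∈ X := X.add_mem (hO.sub_cl (Set.mem_insert _ _))
    (hO.sub_cl (Set.mem_insert_of_mem _ rfl))
  have hYs : Y ≤ hO.pp {v + b} := by
    intro y hy s hs
    rw [Set.mem_singleton_iff] at hs
    rw [hs]
    exact hO.symm (hsX y hy)
  have hc : ∃ c : V, c ≠ 0 ∧ c ∈ X ∧ c ∈ hO.pp {v + b} := by
    by_contra hno
    push Not at hno
    apply hcon
    intro z hz
    obtain ⟨x, hx, y, hy, rfl⟩ := hO.decomp {v, b} z
    have hx' : x ∈ hO.pp {v + b} := by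
      have : x = (x + y) - y := by abel
      rw [this]
      exact (hO.pp {v + b}).sub_mem hz (hYs hy)
    have hx0 : x = 0 := by
      by_contra hx0
      exact hno x hx0 hx hx'
    rw [hx0, zero_add]
    exact hO.symm (hYv hy v rfl)
  obtain ⟨c, hc0, hcX, hcs⟩ := hc
  have hUX : hO.cl {c} ≤ X := hO.cl_mono (by
    rintro t rfl
    exact hcX)
  have hUs : hO.cl {c} ≤ hO.pp {v + b} := by
    intro u hu s hs
    rw [Set.mem_singleton_iff] at hs
    rw [hs]
    apply hu
    rintro t rfl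
    exact hO.symm (hcs _ rfl)
  have h1 : Nat.card Y * Nat.card (hO.cl {c}) ≤ Nat.card (hO.pp {v + b}) :=
    sum_le_of hYs hUs (fun x hx hx' => hO.disj x (hUX hx') hx)
  have h2 := hmin c hc0
  have h3 : Y.index ≤ q * q := by
    have : Y = hO.pp {v} ⊓ hO.pp {b} := le_antisymm (le_inf hYv hYb) hYinf
    rw [this]
    refine AddSubgroup.index_inf_le.trans ?_
    rw [hO.index_pp, hO.index_pp]
    exact Nat.mul_le_mul hv hb
  have h4 := Y.card_mul_index
  have h5 := hO.card_mul {v + b}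
  have h6 := hmin _ hs
  have hYpos : 0 < Nat.card Y := Nat.card_pos
  have h7 : q < Nat.card (hO.cl {v + b}) := lt_of_le_of_ne h6 (Ne.symm hsc)
  have hq0 : 0 < q := by
    rcases Nat.eq_zero_or_pos q with h | h
    · exfalso
      rw [h] at hv
      have : 0 < Nat.card (hO.cl {v}) := Nat.card_pos
      omega
    · exact h
  have h8 : Nat.card (hO.cl {v + b}) * (Nat.card Y * q) ≤ Nat.card Y * (q * q) := by
    calc Nat.card (hO.cl {v + b}) * (Nat.card Y * q)
        ≤ Nat.card (hO.cl {v + b}) * (Nat.card Y * Nat.card (hO.cl {c})) := by gcongr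
      _ ≤ Nat.card (hO.cl {v + b}) * Nat.card (hO.pp {v + b}) := by gcongr
      _ = Nat.card Y * Y.index := by rw [h5, h4]
      _ ≤ Nat.card Y * (q * q) := by gcongr
  have h9 : Nat.card Y * (q * q) < Nat.card (hO.cl {v + b}) * (Nat.card Y * q) := by
    have : Nat.card Y * (q * q) = q * (Nat.card Y * q) := by ring
    rw [this]
    exact Nat.mul_lt_mul_of_pos_right h7 (Nat.mul_pos hYpos hq0)
  omega

theorem cl_eq [Finite V] (hO : OddS H V) {q : ℕ}
    (hmin : ∀ v : V, v ≠ 0 → q ≤ Nat.card (hO.cl {v})) {a c : V}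
    (ha : Nat.card (hO.cl {a}) ≤ q) (hc : c ≠ 0) (hca : c ∈ hO.cl {a}) :
    hO.cl {c} = hO.cl {a} := by
  have h1 : hO.cl {c} ≤ hO.cl {a} := hO.cl_mono (by
    rintro t rfl
    exact hca)
  exact AddSubgroup.eq_of_le_of_card_ge h1 (ha.trans (hmin c hc))

theorem p4b [Finite V] (hO : OddS H V) {q : ℕ}
    (hmin : ∀ v : V, v ≠ 0 → q ≤ Nat.card (hO.cl {v})) {s a b : V}
    (has : a ∈ hO.cl {s}) (hbs : b ∈ hO.cl {s})
    (ha : Nat.card (hO.cl {a}) ≤ q) (hb : Nat.card (hO.cl {b}) ≤ q)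
    (hab : ∃ h : H, h • a = b) : hO.cl {a} = hO.cl {b} := by
  have hsub : ∀ {x : V}, x ∈ hO.cl {s} → ∀ t ∈ ({x} : Set V), t ∈ hO.cl {s} := by
    rintro x hx t rfl
    exact hx
  obtain ⟨ra, a1, a2, a3, -⟩ := hO.rho {a}
  obtain ⟨rb, b1, b2, b3, -⟩ := hO.rho {b}
  have haa : ra • a = a := (a2 a).mp (hO.sub_cl rfl)
  have hbb : rb • b = b := (b2 b).mp (hO.sub_cl rfl)
  have hma : ∀ {u : V}, u ∈ hO.cl {s} → ra • u ∈ hO.cl {s} :=
    fun hu => hO.rho_mem (hsub has) a1 a2 hu
  have hmb : ∀ {u : V}, u ∈ hO.cl {s} → rb • u ∈ hO.cl {s} :=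
    fun hu => hO.rho_mem (hsub hbs) b1 b2 hu
  have hss : s ∈ hO.cl {s} := hO.sub_cl rfl
  -- commutation on `b`
  have hcomm : rb • ra • b = ra • b := by
    have h1 := hO.sq_one (x := s) (h := ra * rb) (by
      rw [mul_smul]; exact hma (hmb hss)) hbs
    rw [mul_smul, mul_smul, hbb] at h1
    have h2 := congrArg (fun z => ra • z) h1
    simp only [a1] at h2
    exact h2
  by_cases hc : b + ra • b = 0
  · have hrab : ra • b = -b := eq_neg_of_add_eq_zero_right hc
    have hds : a + b ∈ hO.cl {s} := (hO.cl {s}).add_mem has hbs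
    obtain ⟨rd, d1, d2, d3, -⟩ := hO.rho {a + b}
    have hdd : rd • (a + b) = a + b := (d2 _).mp (hO.sub_cl rfl)
    have hmd : ∀ {u : V}, u ∈ hO.cl {s} → rd • u ∈ hO.cl {s} :=
      fun hu => hO.rho_mem (hsub hds) d1 d2 hu
    have h1 := hO.sq_one (x := s) (h := ra * rd) (by
      rw [mul_smul]; exact hma (hmd hss)) hds
    rw [mul_smul, mul_smul, hdd] at h1
    have h2 := congrArg (fun z => ra • z) h1
    simp only [a1] at h2
    have hrd : ra • (a + b) = a - b := by rw [smul_add, haa, hrab, sub_eq_add_neg]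
    rw [hrd] at h2
    have h3 : a - b ∈ hO.cl {a + b} := (d2 _).mpr h2
    have h4 : a + a ∈ hO.cl {a + b} := by
      have : a + a = (a + b) + (a - b) := by abel
      rw [this]
      exact (hO.cl {a + b}).add_mem (hO.sub_cl rfl) h3
    have h5 : a ∈ hO.cl {a + b} := by
      rw [d2] at h4 ⊢
      rw [smul_add] at h4
      have : (rd • a - a) + (rd • a - a) = 0 := by
        have e : (rd • a - a) + (rd • a - a) = (rd • a + rd • a) - (a + a) := by abel
        rw [e, h4, sub_self]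
      exact sub_eq_zero.mp (hO.two _ this)
    obtain ⟨k, hk1, hk2⟩ := bin_swap hO.bin hab
    have h6 : k • a = a := hO.cl_fixed h5 (by
      rintro t rfl
      rw [smul_add, hk1, hk2, add_comm])
    rw [← hk1, h6]
  · have h1 : b + ra • b ∈ hO.cl {a} := (a2 _).mpr (by rw [smul_add, a1, add_comm])
    have h2 : b + ra • b ∈ hO.cl {b} := (b2 _).mpr (by rw [smul_add, hbb, hcomm])
    rw [← hO.cl_eq hmin ha hc h1, hO.cl_eq hmin hb hc h2]

theorem p4c [Finite V] (hO : OddS H V) {q : ℕ}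
    (hmin : ∀ v : V, v ≠ 0 → q ≤ Nat.card (hO.cl {v})) {a : V}
    (ha : Nat.card (hO.cl {a}) = q) :
    ∀ (n : ℕ) (M : Multiset V), M.card = n → (∀ x ∈ M, ∃ h : H, h • a = x) →
      M.sum = 0 ∨ Nat.card (hO.cl {M.sum}) = q := by
  classical
  intro n
  induction n with
  | zero =>
    intro M hM _
    left
    rw [Multiset.card_eq_zero.mp hM, Multiset.sum_zero]
  | succ n ih =>
    intro M hM hMa
    by_contra hcon
    push Not at hcon
    obtain ⟨hs0, hsq⟩ := hcon
    have hcard : ∀ x ∈ M, Nat.card (hO.cl {x}) = q := by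
      intro x hx
      obtain ⟨h, rfl⟩ := hMa x hx
      rw [hO.card_cl_smul, ha]
    have hmem : ∀ x ∈ M, x ∈ hO.cl {M.sum} := by
      intro x hx
      have hsum : x + (M.erase x).sum = M.sum := by
        rw [← Multiset.sum_cons, Multiset.cons_erase hx]
      rcases ih (M.erase x) (by rw [Multiset.card_erase_of_mem hx, hM]; rfl)
        (fun y hy => hMa y (Multiset.mem_of_mem_erase hy)) with h | h
      · exfalso
        rw [h, add_zero] at hsum
        rw [← hsum] at hsq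
        exact hsq (hcard x hx)
      · rw [← hsum]
        apply hO.p4a hmin (hcard x hx).le h.le
        · rw [hsum]; exact hs0
        · rw [hsum]; exact hsq
    have hne : ∃ x₀, x₀ ∈ M := by
      apply Multiset.exists_mem_of_ne_zero
      rintro rfl
      exact hs0 Multiset.sum_zero
    obtain ⟨x₀, hx₀⟩ := hne
    have hsmem : M.sum ∈ hO.cl {x₀} := by
      apply AddSubgroup.multiset_sum_mem
      intro x hx
      obtain ⟨h, rfl⟩ := hMa x hx
      obtain ⟨h', rfl⟩ := hMa x₀ hx₀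
      have := hO.p4b hmin (hmem _ hx) (hmem _ hx₀) (hcard _ hx).le (hcard _ hx₀).le
        ⟨h' * h⁻¹, by rw [mul_smul, inv_smul_smul]⟩
      rw [← this]
      exact hO.sub_cl rfl
    have := hO.cl_eq hmin (hcard _ hx₀).le hs0 hsmem
    rw [this] at hsq
    exact hsq (hcard _ hx₀)

theorem p4 [Finite V] (hO : OddS H V)
    (hirr : ∀ W : AddSubgroup V, (∀ h : H, ∀ w ∈ W, h • w ∈ W) → W = ⊥ ∨ W = ⊤)
    (hV : ∃ v : V, v ≠ 0) : ∃ q, ∀ v : V, v ≠ 0 → Nat.card (hO.cl {v}) = q := by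
  classical
  have hex : ∃ q, ∃ v : V, v ≠ 0 ∧ Nat.card (hO.cl {v}) = q := by
    obtain ⟨v, hv⟩ := hV
    exact ⟨_, v, hv, rfl⟩
  set q := Nat.find hex with hq
  obtain ⟨a, ha0, ha⟩ := Nat.find_spec hex
  rw [← hq] at ha
  have hmin : ∀ v : V, v ≠ 0 → q ≤ Nat.card (hO.cl {v}) :=
    fun v hv => Nat.find_min' hex ⟨v, hv, rfl⟩
  obtain ⟨n, hn⟩ := hO.neg
  let W : AddSubgroup V :=
    { carrier := {v | ∃ M : Multiset V, (∀ x ∈ M, ∃ h : H, h • a = x) ∧ M.sum = v}
      zero_mem' := ⟨0, fun x hx => absurd hx (Multiset.notMem_zero x), Multiset.sum_zero⟩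
      add_mem' := by
        rintro _ _ ⟨M, hM, rfl⟩ ⟨M', hM', rfl⟩
        refine ⟨M + M', ?_, Multiset.sum_add M M'⟩
        intro x hx
        rcases Multiset.mem_add.mp hx with h | h
        · exact hM x h
        · exact hM' x h
      neg_mem' := by
        rintro _ ⟨M, hM, rfl⟩
        refine ⟨M.map (fun x => -x), ?_, ?_⟩
        · intro x hx
          obtain ⟨y, hy, rfl⟩ := Multiset.mem_map.mp hx
          obtain ⟨h, rfl⟩ := hM y hy
          exact ⟨n * h, by rw [mul_smul, hn]⟩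
        · exact Multiset.sum_map_neg' M }
  have hW : W = ⊤ := by
    rcases hirr W (by
      rintro h _ ⟨M, hM, rfl⟩
      refine ⟨M.map (fun x => h • x), ?_, ?_⟩
      · intro x hx
        obtain ⟨y, hy, rfl⟩ := Multiset.mem_map.mp hx
        obtain ⟨g, rfl⟩ := hM y hy
        exact ⟨h * g, mul_smul _ _ _⟩
      · exact (Multiset.smul_sum (r := h) (s := M)).symm) with h | h
    · exfalso
      apply ha0
      have : a ∈ W := ⟨{a}, fun x hx => ⟨1, by
        rw [Multiset.mem_singleton.mp hx, one_smul]⟩, Multiset.sum_singleton a⟩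
      rw [h] at this
      simpa using this
    · exact h
  refine ⟨q, fun v hv => ?_⟩
  have hvW : v ∈ W := by rw [hW]; trivial
  obtain ⟨M, hM, hMv⟩ := hvW
  rcases hO.p4c hmin ha M.card M rfl hM with h | h
  · exact absurd (hMv ▸ h) hv
  · rwa [hMv] at h

end OddS

end Cfsg.Agent.H8B
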