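import Cfsg.Agent.H8B.Odd3

set_option autoImplicit false

namespace Cfsg.Agent.H8B

variable {H V : Type*} [Group H] [AddCommGroup V] [DistribMulAction H V]

theorem dvd_card_sub [Finite V] {p : ℕ} (hp : p.Prime) (hpV : ∀ v : V, p • v = 0)
    (W : AddSubgroup V) {w : V} (hw : w ∈ W) (hw0 : w ≠ 0) : p ∣ Nat.card W := by
  haveI : Fact p.Prime := ⟨hp⟩
  have h1 : addOrderOf w = p := addOrderOf_eq_prime (hpV w) hw0
  have h2 : addOrderOf (⟨w, hw⟩ : W) = p := by
    rw [← h1, ← AddSubgroup.addOrderOf_coe]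
  rw [← h2]
  exact addOrderOf_dvd_natCard _

theorem card_filter_zmod [Fintype V] [DecidableEq V] {p : ℕ} (hp : p.Prime)
    (hpV : ∀ v : V, p • v = 0)
    (W : AddSubgroup V) {w : V} (hw : w ∈ W) (hw0 : w ≠ 0) (P : {v : V // v ≠ 0} → Prop)
    [DecidablePred P] (hP : ∀ v, P v ↔ (v : V) ∈ W) :
    (∑ z : {v : V // v ≠ 0}, if P z then (1 : ZMod p) else 0) = -1 := by
  classical
  rw [Finset.sum_ite, Finset.sum_const_zero, add_zero, Finset.sum_const, nsmul_eq_mul, mul_one]
  have h1 := ne_card W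
  have h2 : (Finset.univ.filter P).card = Nat.card {v : V // v ∈ W ∧ v ≠ 0} := by
    rw [Nat.card_eq_fintype_card, ← Fintype.card_subtype]
    refine Fintype.card_congr
      { toFun := fun z => ⟨z.1.1, (hP z.1).mp z.2, z.1.2⟩
        invFun := fun z => ⟨⟨z.1, z.2.2⟩, (hP _).mpr z.2.1⟩
        left_inv := fun z => rfl
        right_inv := fun z => rfl }
  rw [h2]
  obtain ⟨k, hk⟩ := dvd_card_sub hp hpV W hw hw0
  rw [hk] at h1
  have h3 := congrArg (Nat.cast (R := ZMod p)) h1
  push_cast at h3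
  rw [ZMod.natCast_self, zero_mul] at h3
  exact eq_neg_of_add_eq_zero_left h3

namespace OddS

theorem p5 [Finite V] (hO : OddS H V) {p : ℕ} (hp : p.Prime) (hpV : ∀ v : V, p • v = 0)
    (hV : ∃ v : V, v ≠ 0) : ∃ x y : V, x ≠ 0 ∧ y ≠ 0 ∧ ∀ z : V, Per H x z → Per H y z → z = 0 := by
  classical
  by_contra hcon
  push Not at hcon
  haveI : Fact p.Prime := ⟨hp⟩
  letI : Fintype V := Fintype.ofFinite V
  let X := {v : V // v ≠ 0}
  let M : Matrix X X (ZMod p) := Matrix.of fun x y => if Per H x.1 y.1 then 1 else 0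
  let J : Matrix X X (ZMod p) := Matrix.of fun _ _ => 1
  have hMJ : M * J = -J := by
    ext x y
    rw [Matrix.mul_apply]
    have h1 : ∀ z : X, M x z * J z y = if Per H x.1 z.1 then 1 else 0 := by
      intro z
      change (if Per H x.1 z.1 then (1 : ZMod p) else 0) * 1 = _
      rw [mul_one]
    rw [Finset.sum_congr rfl (fun z _ => h1 z)]
    obtain ⟨z, hz1, -, hz0⟩ := hcon x.1 x.1 x.2 x.2
    rw [card_filter_zmod hp hpV (hO.pp {x.1}) (w := z) (by
      rintro s rfl
      exact hz1) hz0 _ (by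
      intro v
      constructor
      · rintro h s rfl
        exact h
      · intro h
        exact h _ rfl)]
    rfl
  have hMM : M * M = -J := by
    ext x y
    rw [Matrix.mul_apply]
    have h1 : ∀ z : X, M x z * M z y = if (Per H x.1 z.1 ∧ Per H y.1 z.1) then 1 else 0 := by
      intro z
      change (if Per H x.1 z.1 then (1 : ZMod p) else 0) * (if Per H z.1 y.1 then 1 else 0) = _
      by_cases ha : Per H x.1 z.1
      · by_cases hb : Per H z.1 y.1
        · rw [if_pos ha, if_pos hb, if_pos ⟨ha, hO.symm hb⟩, mul_one]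
        · rw [if_pos ha, if_neg hb, if_neg (fun h => hb (hO.symm h.2)), mul_zero]
      · rw [if_neg ha, zero_mul, if_neg (fun h => ha h.1)]
    rw [Finset.sum_congr rfl (fun z _ => h1 z)]
    obtain ⟨z, hz1, hz2, hz0⟩ := hcon x.1 y.1 x.2 y.2
    rw [card_filter_zmod hp hpV (hO.pp {x.1, y.1}) (w := z) (by
      rintro s (rfl | rfl)
      · exact hz1
      · exact hz2) hz0 _ (by
      intro v
      constructor
      · rintro h s (rfl | rfl)
        · exact h.1
        · exact h.2
      · intro h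
        exact ⟨h _ (Set.mem_insert _ _), h _ (Set.mem_insert_of_mem _ rfl)⟩)]
    rfl
  have hpow : ∀ k : ℕ, M ^ (k + 2) = (-1 : ZMod p) ^ (k + 1) • J := by
    intro k
    induction k with
    | zero => rw [zero_add, sq, hMM, zero_add, pow_one, neg_smul, one_smul]
    | succ k ih =>
      rw [show k + 1 + 2 = (k + 2) + 1 from rfl, pow_succ', ih, Matrix.mul_smul, hMJ,
        pow_succ' _ (k + 1), mul_smul, neg_smul, one_smul, smul_neg]
  obtain ⟨k, hk⟩ : ∃ k, p = k + 2 := ⟨p - 2, by have := hp.two_le; omega⟩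
  have htr : (M ^ p).trace = M.trace ^ p := ZMod.trace_pow_card M
  have h0 : M.trace = 0 := by
    rw [Matrix.trace]
    apply Finset.sum_eq_zero
    intro x _
    change (if Per H x.1 x.1 then (1 : ZMod p) else 0) = 0
    rw [if_neg (fun h => x.2 (hO.self h))]
  rw [h0, zero_pow hp.ne_zero] at htr
  have hJ : J.trace = -1 := by
    rw [Matrix.trace]
    obtain ⟨v, hv⟩ := hV
    have := card_filter_zmod hp hpV (⊤ : AddSubgroup V) (w := v) trivial hv (fun _ => True)
      (fun _ => ⟨fun _ => trivial, fun _ => trivial⟩)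
    refine Eq.trans ?_ this
    apply Finset.sum_congr rfl
    intro x _
    rw [if_pos trivial]
    rfl
  have h2 : M ^ p = (-1 : ZMod p) ^ (k + 1) • J := by
    have := hpow k
    rw [← hk] at this
    exact this
  rw [h2, Matrix.trace_smul, hJ, smul_eq_mul, ← pow_succ] at htr
  exact (pow_ne_zero _ (neg_ne_zero.mpr one_ne_zero)) htr

end OddS

end Cfsg.Agent.H8B
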