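import Cfsg.Agent.H8B.Odd4

set_option autoImplicit false

namespace Cfsg.Agent.H8B

variable {H V : Type*} [Group H] [AddCommGroup V] [DistribMulAction H V]

/-- The first alternative, for the linear part. -/
def PrimeCase (H V : Type*) [Group H] [AddCommGroup V] [DistribMulAction H V] : Prop :=
  (Nat.card V).Prime ∧ Nat.card H ≤ 2

theorem prime_of_simple [Finite V] {p : ℕ} (hp : p.Prime) (hpV : ∀ v : V, p • v = 0)
    (hV : ∃ v : V, v ≠ 0) (hs : ∀ W : AddSubgroup V, W = ⊥ ∨ W = ⊤) : (Nat.card V).Prime := by
  obtain ⟨v, hv⟩ := hV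
  haveI : Fact p.Prime := ⟨hp⟩
  have h1 : addOrderOf v = p := addOrderOf_eq_prime (hpV v) hv
  rcases hs (AddSubgroup.zmultiples v) with h | h
  · exfalso
    apply hv
    have : v ∈ AddSubgroup.zmultiples v := AddSubgroup.mem_zmultiples v
    rw [h] at this
    simpa using this
  · have h2 : Nat.card (AddSubgroup.zmultiples v) = p := by
      rw [Nat.card_zmultiples, h1]
    rw [h, Nat.card_congr AddSubgroup.topEquiv.toEquiv] at h2
    rw [h2]; exact hp

theorem odd_main [Finite H] [Finite V] [FaithfulSMul H V] (hB : Bin H V) {p : ℕ} (hp : p.Prime)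
    (hp2 : p ≠ 2) (hpV : ∀ v : V, p • v = 0)
    (hirr : ∀ W : AddSubgroup V, (∀ h : H, ∀ w ∈ W, h • w ∈ W) → W = ⊥ ∨ W = ⊤)
    (hV : ∃ v : V, v ≠ 0) (hH : ∃ h : H, h ≠ 1) : PrimeCase H V ∨ FieldCase H V := by
  classical
  have hfix : ∀ v : V, (∀ h : H, h • v = v) → v = 0 := by
    intro v hv
    let W : AddSubgroup V :=
      { carrier := {v | ∀ h : H, h • v = v}
        zero_mem' := fun h => smul_zero h
        add_mem' := by
          intro a b ha hb h
          rw [smul_add, ha h, hb h]
        neg_mem' := by
          intro a ha h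
          rw [smul_neg, ha h] }
    rcases hirr W (by
      intro h w hw g
      rw [hw h, hw g]) with h | h
    · have : v ∈ W := hv
      rw [h] at this
      simpa using this
    · exfalso
      obtain ⟨g, hg⟩ := hH
      apply hg
      apply FaithfulSMul.eq_of_smul_eq_smul (α := V)
      intro x
      have : x ∈ W := by rw [h]; trivial
      rw [this g, one_smul]
  have hO := oddS_mk hB hp hp2 hpV hfix
  obtain ⟨q, hq⟩ := hO.p4 hirr hV
  have hcardpp : ∀ v : V, v ≠ 0 → q * Nat.card (hO.pp {v}) = Nat.card V := by
    intro v hv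
    rw [← hq v hv]
    exact hO.card_mul {v}
  have hpos : 0 < Nat.card V := Nat.card_pos
  have hq1 : 1 < q := by
    obtain ⟨v, hv⟩ := hV
    rw [← hq v hv]
    have : Nontrivial (hO.cl {v}) := ⟨⟨⟨v, hO.sub_cl rfl⟩, 0, by
      intro h
      exact hv (congrArg Subtype.val h)⟩⟩
    exact Finite.one_lt_card
  have hle : Nat.card V ≤ q ^ 2 := by
    obtain ⟨x, y, hx, hy, hxy⟩ := hO.p5 hp hpV hV
    have h1 : Nat.card (hO.pp {x}) * Nat.card (hO.pp {y}) ≤ Nat.card V :=
      sum_le (fun z hz hz' => hxy z (hz x rfl) (hz' y rfl))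
    have h2 := hcardpp x hx
    have h3 := hcardpp y hy
    have h4 : Nat.card V * Nat.card V ≤ q ^ 2 * Nat.card V := by
      calc Nat.card V * Nat.card V
          = (q * Nat.card (hO.pp {x})) * (q * Nat.card (hO.pp {y})) := by rw [h2, h3]
        _ = q ^ 2 * (Nat.card (hO.pp {x}) * Nat.card (hO.pp {y})) := by ring
        _ ≤ q ^ 2 * Nat.card V := by gcongr
    exact Nat.le_of_mul_le_mul_right h4 hpos
  by_cases hA : ∃ v : V, v ≠ 0 ∧ ∀ z, Per H v z → z = 0
  · -- all stabilizers are trivial
    left
    obtain ⟨v, hv, hvz⟩ := hA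
    have hVq : Nat.card V = q := by
      rw [← hcardpp v hv]
      have : hO.pp {v} = ⊥ := by
        rw [eq_bot_iff]
        intro z hz
        rw [hvz z (hz v rfl)]
        exact AddSubgroup.zero_mem _
      rw [this, AddSubgroup.card_bot, mul_one]
    have hcltop : hO.cl {v} = ⊤ := by
      apply AddSubgroup.eq_top_of_card_eq
      rw [hq v hv, hVq]
    have hreg : ∀ h : H, h • v = v → h = 1 := by
      intro h hh
      apply FaithfulSMul.eq_of_smul_eq_smul (α := V)
      intro x
      rw [one_smul]
      apply hO.cl_fixed (S := {v})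
      · rw [hcltop]; trivial
      · rintro s rfl
        exact hh
    have hsq := bin_regular hB hreg
    have hcomm : ∀ a b : H, a * b = b * a := by
      intro a b
      have hinv : ∀ c : H, c⁻¹ = c := fun c => inv_eq_of_mul_eq_one_left (hsq c)
      calc a * b = (a * b)⁻¹ := (hinv _).symm
        _ = b⁻¹ * a⁻¹ := mul_inv_rev a b
        _ = b * a := by rw [hinv, hinv]
    have hneg : ∀ h : H, h ≠ 1 → ∀ x : V, h • x = -x := by
      intro h hh x
      have h0 : ∀ z ∈ fixE V h, z = 0 := by
        rcases hirr (fixE V h) (by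
          intro g w hw
          rw [mem_fixE] at hw ⊢
          rw [smul_smul, hcomm, mul_smul, hw]) with e | e
        · intro z hz
          rw [e] at hz
          simpa using hz
        · exfalso
          apply hh
          apply FaithfulSMul.eq_of_smul_eq_smul (α := V)
          intro x
          have : x ∈ fixE V h := by rw [e]; trivial
          rw [one_smul]; exact this
      have h1 := h0 (x + h • x) (by
        rw [mem_fixE, smul_add, smul_smul, hsq, one_smul, add_comm])
      exact (neg_eq_of_add_eq_zero_right h1).symm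
    refine ⟨prime_of_simple hp hpV hV (fun W => hirr W ?_), ?_⟩
    · intro h w hw
      by_cases hh : h = 1
      · rw [hh, one_smul]; exact hw
      · rw [hneg h hh]; exact W.neg_mem hw
    · obtain ⟨g, hg⟩ := hH
      have hall : ∀ h : H, h = 1 ∨ h = g := by
        intro h
        by_cases hh : h = 1
        · left; exact hh
        · right
          apply FaithfulSMul.eq_of_smul_eq_smul (α := V)
          intro x
          rw [hneg h hh, hneg g hg]
      letI : Fintype H := Fintype.ofFinite H
      rw [Nat.card_eq_fintype_card, ← Finset.card_univ]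
      have : (Finset.univ : Finset H) ⊆ {1, g} := by
        intro h _
        rcases hall h with e | e
        · rw [e]; exact Finset.mem_insert_self _ _
        · rw [e]; exact Finset.mem_insert_of_mem (Finset.mem_singleton_self g)
      exact (Finset.card_le_card this).trans (Finset.card_le_two)
  · right
    push Not at hA
    have hclpp : ∀ v w : V, v ≠ 0 → w ≠ 0 → Per H v w → hO.cl {w} ≤ hO.pp {v} := by
      intro v w hv hw hvw u hu s hs
      rw [Set.mem_singleton_iff] at hs
      rw [hs]
      apply hu
      rintro t rfl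
      exact hO.symm hvw
    have hVq : Nat.card V = q ^ 2 := by
      apply le_antisymm hle
      obtain ⟨v, hv⟩ := hV
      obtain ⟨w, hvw, hw⟩ := hA v hv
      rw [← hcardpp v hv, sq]
      apply Nat.mul_le_mul_left
      rw [← hq w hw]
      exact Nat.card_le_card_of_injective _ (AddSubgroup.inclusion_injective (hclpp v w hv hw hvw))
    have hppq : ∀ v : V, v ≠ 0 → Nat.card (hO.pp {v}) = q := by
      intro v hv
      have := hcardpp v hv
      rw [hVq, sq] at this
      exact Nat.eq_of_mul_eq_mul_left (by omega) this
    have hclpp' : ∀ v w : V, v ≠ 0 → w ≠ 0 → Per H v w → hO.cl {w} = hO.pp {v} := by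
      intro v w hv hw hvw
      apply AddSubgroup.eq_of_le_of_card_ge (hclpp v w hv hw hvw)
      rw [hq w hw, hppq v hv]
    have hfaith : ∀ (v w : V) (h : H), v ≠ 0 → w ≠ 0 → Per H v w → h • v = v → h • w = w → h = 1 := by
      intro v w h hv hw hvw h1 h2
      apply FaithfulSMul.eq_of_smul_eq_smul (α := V)
      intro x
      obtain ⟨a, ha, b, hb, rfl⟩ := hO.decomp {v} x
      rw [← hclpp' v w hv hw hvw] at hb
      rw [one_smul, smul_add, hO.cl_fixed ha (by
        rintro s rfl
        exact h1), hO.cl_fixed hb (by
        rintro s rfl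
        exact h2)]
    -- the structure of vector stabilizers
    have hstab : ∀ v : V, v ≠ 0 → ∃ r : H, r ≠ 1 ∧ r • v = v ∧
        (∀ h : H, h • v = v → h = 1 ∨ h = r) ∧ (∀ u : V, u ∈ hO.cl {v} ↔ r • u = u) ∧
        (∀ u : V, u ∈ hO.pp {v} ↔ r • u = -u) := by
      intro v hv
      obtain ⟨r, r1, r2, r3, -⟩ := hO.rho {v}
      obtain ⟨w, hvw, hw⟩ := hA v hv
      have hwpp : w ∈ hO.pp {v} := by
        rintro s rfl
        exact hvw
      have hrv : r • v = v := (r2 v).mp (hO.sub_cl rfl)
      refine ⟨r, ?_, hrv, ?_, r2, r3⟩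
      · rintro rfl
        have h1 := (r3 w).mp hwpp
        rw [one_smul] at h1
        apply hw
        apply hO.two
        nth_rewrite 1 [h1]
        exact neg_add_cancel w
      · intro h hh
        by_cases hh1 : h = 1
        · left; exact hh1
        right
        have hpres : ∀ u ∈ hO.pp {v}, h • u ∈ hO.pp {v} := by
          intro u hu
          have := hO.pp_smul h hu
          rwa [hh] at this
        have hneg : ∀ u ∈ hO.pp {v}, h • u = -u := by
          intro u hu
          have hu2 : h • h • u = u := by
            rw [← hclpp' v w hv hw hvw] at hu hpres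
            exact hO.sq_one (hpres w (hO.sub_cl rfl)) hu
          have h1 : u + h • u ∈ hO.pp {v} := (hO.pp {v}).add_mem hu (hpres u hu)
          have h2 : u + h • u = 0 := by
            by_contra hne
            apply hh1
            apply hfaith v (u + h • u) h hv hne (h1 v rfl) hh
            rw [smul_add, hu2, add_comm]
          exact (neg_eq_of_add_eq_zero_right h2).symm
        apply FaithfulSMul.eq_of_smul_eq_smul (α := V)
        intro x
        obtain ⟨a, ha, b, hb, rfl⟩ := hO.decomp {v} x
        rw [smul_add, smul_add, hneg b hb, (r3 b).mp hb, (r2 a).mp ha, hO.cl_fixed ha (by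
          rintro s rfl
          exact hh)]
    refine fin_case hB hp hpV hVq hq1 ?_ ?_ ?_
    · intro v hv
      obtain ⟨r, h1, h2, h3, -⟩ := hstab v hv
      exact ⟨r, h1, h2, h3⟩
    · rintro t ht ⟨v, hv, htv⟩
      obtain ⟨r, h1, h2, h3, h4, -⟩ := hstab v hv
      rcases h3 t htv with e | e
      · exact absurd e ht
      · rw [← hq v hv]
        have : fixE V t = hO.cl {v} := by
          ext u
          rw [mem_fixE, e, h4]
        rw [this]
    · intro h hh v hv hfv
      obtain ⟨r, h1, h2, h3, h4, h5⟩ := hstab v hv
      have hr : h * h = r := by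
        rcases h3 _ hfv with e | e
        · exact absurd e hh
        · exact e
      have hcom : ∀ u : V, r • h • u = h • r • u := by
        intro u
        rw [← hr, smul_smul, smul_smul, mul_assoc]
      obtain ⟨w, hvw, hw⟩ := hA v hv
      apply hh
      apply FaithfulSMul.eq_of_smul_eq_smul (α := V)
      intro x
      obtain ⟨a, ha, b, hb, rfl⟩ := hO.decomp {v} x
      have e1 : h • h • a = a := by
        apply hO.sq_one (x := v) _ ha
        rw [h4, hcom, h2]
      have e2 : h • h • b = b := by
        rw [← hclpp' v w hv hw hvw] at hb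
        apply hO.sq_one (x := w) _ hb
        rw [hclpp' v w hv hw hvw, h5, hcom]
        have : r • w = -w := (h5 w).mp (by
          rintro s rfl
          exact hvw)
        rw [this, smul_neg]
      rw [one_smul, mul_smul, smul_add, smul_add, e1, e2]

end Cfsg.Agent.H8B
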