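import Cfsg.Agent.H8B.Fin

set_option autoImplicit false

namespace Cfsg.Agent.H8B

variable {H V : Type*} [Group H] [AddCommGroup V] [DistribMulAction H V]

/-- Inclusion of fixed spaces. -/
def FL (V : Type*) [AddCommGroup V] [DistribMulAction H V] (t k : H) : Prop :=
  ∀ v : V, t • v = v → k • v = v

/-- Elements with maximal fixed space. -/
def TT (V : Type*) [AddCommGroup V] [DistribMulAction H V] (t : H) : Prop :=
  t ≠ 1 ∧ ∀ k : H, k ≠ 1 → FL V t k → FL V k t

theorem FL.trans {t k l : H} (h1 : FL V t k) (h2 : FL V k l) : FL V t l :=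
  fun v hv => h2 v (h1 v hv)

theorem FL.conj {t k : H} (h : FL V t k) (g : H) : FL V (g * t * g⁻¹) (g * k * g⁻¹) := by
  intro v hv
  have h1 : t • g⁻¹ • v = g⁻¹ • v := by
    rw [← smul_left_cancel_iff g, smul_inv_smul, smul_smul, smul_smul]
    exact hv
  have h2 := h _ h1
  rw [mul_smul, mul_smul, h2, smul_inv_smul]

theorem TT.mono {t k : H} (ht : TT V t) (hk : k ≠ 1) (h : FL V t k) : TT V k :=
  ⟨hk, fun k' hk' h' => (ht.2 k' hk' (h.trans h')).trans h⟩

theorem TT.conj {t : H} (ht : TT V t) (g : H) : TT V (g * t * g⁻¹) := by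
  refine ⟨?_, fun k hk h => ?_⟩
  · intro h
    apply ht.1
    have : t = g⁻¹ * (g * t * g⁻¹) * g := by group
    rw [this, h]; group
  · have h1 := h.conj g⁻¹
    have e1 : g⁻¹ * (g * t * g⁻¹) * g⁻¹⁻¹ = t := by group
    rw [e1] at h1
    have h2 := ht.2 (g⁻¹ * k * g⁻¹⁻¹) (by
      intro h
      apply hk
      have : k = g * (g⁻¹ * k * g⁻¹⁻¹) * g⁻¹ := by group
      rw [this, h]; group) h1
    have h3 := h2.conj g
    have e2 : g * (g⁻¹ * k * g⁻¹⁻¹) * g⁻¹ = k := by group
    rwa [e2] at h3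

theorem exists_TT [Finite H] [Finite V] {h : H} (hh : h ≠ 1) : ∃ t : H, TT V t ∧ FL V h t := by
  classical
  letI : Fintype H := Fintype.ofFinite H
  obtain ⟨t, ht, hmax⟩ := Finset.exists_max_image
    (Finset.univ.filter (fun k : H => k ≠ 1 ∧ FL V h k)) (fun k => Nat.card (fixE V k))
    ⟨h, by simp only [Finset.mem_filter, Finset.mem_univ, true_and]; exact ⟨hh, fun v hv => hv⟩⟩
  rw [Finset.mem_filter] at ht
  refine ⟨t, ⟨ht.2.1, fun k hk htk => ?_⟩, ht.2.2⟩
  have h1 := hmax k (by
    rw [Finset.mem_filter]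
    exact ⟨Finset.mem_univ _, hk, ht.2.2.trans htk⟩)
  have h2 : fixE V t ≤ fixE V k := fun v hv => htk v hv
  have h3 : fixE V t = fixE V k := AddSubgroup.eq_of_le_of_card_ge h2 h1
  intro v hv
  have : v ∈ fixE V t := by rw [h3]; exact hv
  exact this

/-- The situation in characteristic two. -/
structure TwoS (H V : Type*) [Group H] [AddCommGroup V] [DistribMulAction H V] : Prop where
  bin : Bin H V
  two : ∀ v : V, v + v = 0
  faith : ∀ h : H, (∀ v : V, h • v = v) → h = 1

theorem K_inv (hB : Bin H V) (Z : Set V) {h : H} (hh : ∀ z ∈ Z, h • z = z) (v : V) :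
    ∃ g : H, (∀ z ∈ Z, g • z = z) ∧ g • v = v ∧ g • h • v = h⁻¹ • v := by
  obtain ⟨g, hg1, hg2⟩ := bin_inv (bin_fix hB Z) ⟨h, (mem_fixingSubgroup_iff H).mpr hh⟩ v
  exact ⟨g, (mem_fixingSubgroup_iff H).mp g.2, hg1, hg2⟩

namespace TwoS

theorem neg (hS : TwoS H V) (v : V) : -v = v := neg_eq_of_add_eq_zero_left (hS.two v)

theorem sub (hS : TwoS H V) (v w : V) : v - w = v + w := by rw [sub_eq_add_neg, hS.neg]

theorem cancel (hS : TwoS H V) {v w : V} (h : v + w = 0) : v = w := by
  rw [← hS.sub] at h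
  exact sub_eq_zero.mp h

theorem K_reg (hS : TwoS H V) (Z : Set V) {v : V}
    (hv : ∀ k : H, (∀ z ∈ Z, k • z = z) → k • v = v → k = 1) {h : H}
    (hh : ∀ z ∈ Z, h • z = z) : h * h = 1 := by
  obtain ⟨g, hg1, hg2, hg3⟩ := K_inv hS.bin Z hh v
  have hg := hv g hg1 hg2
  rw [hg, one_smul] at hg3
  apply hv
  · intro z hz
    rw [mul_smul, hh z hz, hh z hz]
  · rw [mul_smul, hg3, smul_inv_smul]

theorem exists_moved (hS : TwoS H V) {t : H} (ht : t ≠ 1) : ∃ v : V, t • v ≠ v := by
  by_contra hcon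
  push Not at hcon
  exact ht (hS.faith t hcon)

theorem sq' (hS : TwoS H V) {t k : H} (ht : TT V t) (hk : FL V t k) : k * k = 1 := by
  obtain ⟨v, hv⟩ := hS.exists_moved ht.1
  apply hS.K_reg {c : V | t • c = c} (v := v) _ hk
  intro l hl hlv
  by_contra hl1
  exact hv (ht.2 l hl1 hl v hlv)

theorem sq (hS : TwoS H V) {t : H} (ht : TT V t) : t * t = 1 := hS.sq' ht (fun _ h => h)

theorem smul_smul_self (hS : TwoS H V) {t : H} (ht : TT V t) (v : V) : t • t • v = v := by
  rw [smul_smul, hS.sq ht, one_smul]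

/-- elements of the commutator space are fixed -/
theorem comm_fixed (hS : TwoS H V) {t : H} (ht : TT V t) (v : V) :
    t • (t • v + v) = t • v + v := by
  rw [smul_add, hS.smul_smul_self ht, add_comm]

/-- (T4) -/
theorem E1 (hS : TwoS H V) {t : H} (ht : TT V t) {y₀ y : V} (hx : t • y₀ + y₀ ≠ 0)
    (hy : ∃ g : H, g • y = y + (t • y₀ + y₀)) : t • y = y + (t • y₀ + y₀) := by
  obtain ⟨h, hh⟩ := bin_shift hS.bin (t • y₀ + y₀)
  have h0 : h • y₀ = y₀ + (t • y₀ + y₀) := hh y₀ ⟨t, by
    have : y₀ + (t • y₀ + y₀) = t • y₀ + (y₀ + y₀) := by abel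
    rw [this, hS.two, add_zero]⟩
  have hth : FL V t h := by
    intro c hc
    have h1 := hh (y₀ + c) ⟨t, by
      have : y₀ + c + (t • y₀ + y₀) = t • y₀ + c + (y₀ + y₀) := by abel
      rw [this, hS.two, add_zero, smul_add, hc]⟩
    rw [smul_add, h0] at h1
    have h2 : h • c = (y₀ + (t • y₀ + y₀) + h • c) - (y₀ + (t • y₀ + y₀)) := by abel
    rw [h2, h1]; abel
  have hh1 : h ≠ 1 := by
    rintro rfl
    rw [one_smul] at h0
    exact hx (left_eq_add.mp h0)
  have h3 := ht.2 h hh1 hth (y + y₀) (by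
    rw [smul_add, hh y hy, h0]
    have : y + (t • y₀ + y₀) + (y₀ + (t • y₀ + y₀)) =
      y + y₀ + ((t • y₀ + y₀) + (t • y₀ + y₀)) := by abel
    rw [this, hS.two, add_zero])
  rw [smul_add] at h3
  have h4 : t • y = (t • y + t • y₀) + t • y₀ := by
    rw [add_assoc, hS.two, add_zero]
  rw [h4, h3]; abel

/-- (T5) -/
theorem E2 (hS : TwoS H V) {t s : H} (ht : TT V t) (hs : TT V s) {a b : V}
    (hx : t • a + a ≠ 0) (hab : t • a + a = s • b + b) : t = s := by
  have hy : ∀ y : V, t • y = y + (t • a + a) → s • y = y + (t • a + a) := by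
    intro y hy
    rw [hab] at hy hx ⊢
    exact hS.E1 hs hx ⟨t, hy⟩
  have hta : t • a = a + (t • a + a) := by
    have : a + (t • a + a) = t • a + (a + a) := by abel
    rw [this, hS.two, add_zero]
  have hsa := hy a hta
  have hfl : FL V t s := by
    intro c hc
    have h1 := hy (a + c) (by rw [smul_add, hc]; nth_rewrite 1 [hta]; abel)
    rw [smul_add, hsa] at h1
    have h2 : s • c = (a + (t • a + a) + s • c) - (a + (t • a + a)) := by abel
    rw [h2, h1]; abel
  by_contra hts
  have h1 : s⁻¹ * t ≠ 1 := fun h => hts (inv_mul_eq_one.mp h).symm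
  have h2 := ht.2 (s⁻¹ * t) h1 (by
    intro c hc
    rw [mul_smul, hc, inv_smul_eq_iff, hfl c hc]) a (by
    rw [mul_smul, inv_smul_eq_iff, hsa, ← hta])
  apply hx
  rw [h2, hS.two]

/-- (T6) -/
theorem E3 (hS : TwoS H V) {t : H} (ht : TT V t) {a b : V} {g : H}
    (h : g • (t • a + a) = t • b + b) : t • a + a = t • b + b := by
  by_contra hne
  have e : t • (a + b) + (a + b) = (t • a + a) + (t • b + b) := by
    rw [smul_add]; abel
  have h1 := hS.E1 ht (y₀ := a + b) (y := t • a + a) (by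
    rw [e]
    intro h0
    exact hne (hS.cancel h0)) ⟨g, by
      rw [e, h, ← add_assoc, hS.two, zero_add]⟩
  rw [hS.comm_fixed ht, e, ← add_assoc, hS.two, zero_add] at h1
  exact hne h1

/-- (T8) -/
theorem E4 (hS : TwoS H V) {t : H} (ht : TT V t) {g : H} (hg : g * t = t * g) (b : V) :
    g • (t • b + b) = t • b + b := by
  have h1 : g • (t • b + b) = t • (g • b) + g • b := by
    rw [smul_add, smul_smul, smul_smul, hg]
  rw [h1]
  exact (hS.E3 ht h1).symm

/-- (T7) -/
theorem E5 (hS : TwoS H V) {t : H} (ht : TT V t) {g : H} {a : V} (ha : t • a + a ≠ 0)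
    (hg : g • (t • a + a) = t • a + a) : g * t = t * g := by
  have h1 := hS.E2 (ht.conj g) ht (a := g • a) (b := a) (by
    have : (g * t * g⁻¹) • g • a + g • a = g • (t • a + a) := by
      rw [mul_smul, mul_smul, inv_smul_smul, smul_add]
    rw [this, hg]; exact ha) (by
    have : (g * t * g⁻¹) • g • a + g • a = g • (t • a + a) := by
      rw [mul_smul, mul_smul, inv_smul_smul, smul_add]
    rw [this, hg])
  exact mul_inv_eq_iff_eq_mul.mp h1

/-- (T9) -/
theorem E6 (hS : TwoS H V) {t s : H} (ht : TT V t) (hs : TT V s) (hts : t * s = s * t)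
    (hne : t ≠ s) {w : V} (hx : t • w + w ≠ 0) :
    ¬ ∃ g : H, g • (t • w + w) = s • w + w := by
  rintro ⟨g, hg⟩
  have h1 : s • (t • w + w) = t • w + w := hS.E4 ht hts.symm w
  have h2 : t • (s • w + w) = s • w + w := hS.E4 hs hts w
  have e1 : (t * s) • w - w = (t • w + w) + (s • w + w) := by
    rw [hS.sub, mul_smul]
    have : s • w = (s • w + w) + w := by rw [add_assoc, hS.two, add_zero]
    nth_rewrite 1 [this]
    rw [smul_add, h2]; abel
  have h3 := bin_K3 hS.bin (k := t * s) (y := w) (w := t • w + w) (by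
    rw [mul_smul, h1, hS.comm_fixed ht]) ⟨g, by
    rw [e1, hg, ← add_assoc, hS.two, zero_add]⟩
  rw [h3, sub_self] at e1
  exact hne (hS.E2 ht hs hx (hS.cancel e1.symm))

end TwoS

/-- The map `w ↦ t w + w`. -/
def cmap (V : Type*) [AddCommGroup V] [DistribMulAction H V] (t : H) : V →+ V where
  toFun := fun w => t • w + w
  map_zero' := by rw [smul_zero, add_zero]
  map_add' := by
    intro a b
    rw [smul_add]; abel

/-- The commutator space of `t`. -/
def PP (V : Type*) [AddCommGroup V] [DistribMulAction H V] (t : H) : AddSubgroup V :=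
  (cmap V t).range

theorem mem_PP {t : H} {v : V} : v ∈ PP V t ↔ ∃ a : V, t • a + a = v := Iff.rfl

theorem card_ker_range [Finite V] (f : V →+ V) :
    Nat.card f.ker * Nat.card f.range = Nat.card V := by
  rw [← AddSubgroup.index_ker]
  exact f.ker.card_mul_index

theorem smul_card_fixE [Finite V] (t g : H) : Nat.card (fixE V (g * t * g⁻¹)) = Nat.card (fixE V t) := by
  apply le_antisymm
  · refine Nat.card_le_card_of_injective
      (fun y : fixE V (g * t * g⁻¹) => (⟨g⁻¹ • y.1, by
        have := y.2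
        rw [mem_fixE] at this ⊢
        rw [mul_smul, mul_smul] at this
        rw [← smul_left_cancel_iff g, smul_inv_smul]
        exact this⟩ : fixE V t)) ?_
    intro a b hab
    apply Subtype.ext
    exact (smul_left_cancel_iff g⁻¹).mp (congrArg Subtype.val hab)
  · refine Nat.card_le_card_of_injective
      (fun y : fixE V t => (⟨g • y.1, by
        have := y.2
        rw [mem_fixE] at this ⊢
        rw [mul_smul, mul_smul, inv_smul_smul, this]⟩ : fixE V (g * t * g⁻¹))) ?_
    intro a b hab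
    apply Subtype.ext
    exact (smul_left_cancel_iff g).mp (congrArg Subtype.val hab)

namespace TwoS

theorem ker_cmap (hS : TwoS H V) (t : H) : (cmap V t).ker = fixE V t := by
  ext v
  rw [AddMonoidHom.mem_ker, mem_fixE]
  constructor
  · intro h
    exact hS.cancel h
  · intro h
    change t • v + v = 0
    rw [h, hS.two]

theorem card_fix_PP [Finite V] (hS : TwoS H V) (t : H) :
    Nat.card (fixE V t) * Nat.card (PP V t) = Nat.card V := by
  rw [← hS.ker_cmap]
  exact card_ker_range _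

/-- (T10) -/
theorem E7 [Finite V] (hS : TwoS H V) {t : H} (ht : TT V t) (g : H)
    (hc : t * (g * t * g⁻¹) = (g * t * g⁻¹) * t) : FL V (g * t * g⁻¹) t ∧ FL V t (g * t * g⁻¹) := by
  by_cases hne : t = g * t * g⁻¹
  · rw [← hne]; exact ⟨fun _ h => h, fun _ h => h⟩
  have hs := ht.conj g
  set s := g * t * g⁻¹ with hsdef
  let φ : V →+ V :=
    { toFun := fun w => (s • w + w) + g • (t • w + w)
      map_zero' := by simp
      map_add' := by
        intro a b
        simp only [smul_add]; abel }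
  have hker : ∀ w, w ∈ φ.ker → t • w = w ∧ s • w = w := by
    intro w hw
    have h1 : (s • w + w) + g • (t • w + w) = 0 := hw
    have h2 : s • w + w = g • (t • w + w) := hS.cancel h1
    have h3 : t • w + w = 0 := by
      by_contra h0
      exact hS.E6 ht hs hc hne h0 ⟨g, h2.symm⟩
    rw [h3, smul_zero] at h2
    exact ⟨hS.cancel h3, hS.cancel h2⟩
  have hrange : φ.range ≤ PP V s := by
    rintro _ ⟨w, rfl⟩
    change (s • w + w) + g • (t • w + w) ∈ PP V s
    refine ⟨w + g • w, ?_⟩
    change s • (w + g • w) + (w + g • w) = _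
    rw [hsdef, smul_add, smul_add, mul_smul, mul_smul, mul_smul, mul_smul, inv_smul_smul]
    abel
  have h1 := card_ker_range φ
  have h2 := hS.card_fix_PP s
  have h3 : Nat.card φ.range ≤ Nat.card (PP V s) :=
    Nat.card_le_card_of_injective _ (AddSubgroup.inclusion_injective hrange)
  have h4 : Nat.card (fixE V s) ≤ Nat.card φ.ker := by
    have h5 : Nat.card (fixE V s) * Nat.card (PP V s) ≤ Nat.card φ.ker * Nat.card (PP V s) := by
      rw [h2, ← h1]
      exact Nat.mul_le_mul_left _ h3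
    exact Nat.le_of_mul_le_mul_right h5 Nat.card_pos
  have h5 : φ.ker ≤ fixE V s := fun w hw => (hker w hw).2
  have h6 : φ.ker = fixE V s := AddSubgroup.eq_of_le_of_card_ge h5 h4
  have h7 : FL V s t := by
    intro w hw
    have : w ∈ φ.ker := by rw [h6]; exact hw
    exact (hker w this).1
  exact ⟨h7, hs.2 t ht.1 h7⟩

end TwoS

end Cfsg.Agent.H8B
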