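import Cfsg.Agent.H8B.Two1

set_option autoImplicit false

namespace Cfsg.Agent.H8B

variable {H V : Type*} [Group H] [AddCommGroup V] [DistribMulAction H V]

theorem dih_alt {G : Type*} [Group G] [Finite G] {a b : G} (ha : a * a = 1) (hb : b * b = 1) :
    (∃ m : ℕ, (a * b) ^ m ≠ 1 ∧ (a * b) ^ m * a = a * (a * b) ^ m ∧
      (a * b) ^ m * b = b * (a * b) ^ m) ∨ ∃ m : ℕ, (a * b) ^ m * a * ((a * b) ^ m)⁻¹ = b := by
  set u := a * b with hu
  have ha' : a⁻¹ = a := inv_eq_of_mul_eq_one_left ha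
  have hb' : b⁻¹ = b := inv_eq_of_mul_eq_one_left hb
  have hui : u⁻¹ = b * a := by rw [hu, mul_inv_rev, ha', hb']
  have hau : ∀ m : ℕ, a * u ^ m * a⁻¹ = (u ^ m)⁻¹ := by
    intro m
    have h1 : a * u * a⁻¹ = u⁻¹ := by
      rw [hui, hu, ha', ← mul_assoc, ha, one_mul]
    rw [← conj_pow, h1, inv_pow]
  have hn : 0 < orderOf u := orderOf_pos u
  rcases Nat.even_or_odd' (orderOf u) with ⟨m, hm | hm⟩
  · left
    have h1 : u ^ m * u ^ m = 1 := by
      rw [← pow_add, ← two_mul, ← hm, pow_orderOf_eq_one]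
    have h2 : (u ^ m)⁻¹ = u ^ m := inv_eq_of_mul_eq_one_left h1
    have h3 : u ^ m * a = a * u ^ m := by
      have := hau m
      rw [h2, mul_inv_eq_iff_eq_mul] at this
      exact this.symm
    refine ⟨m, ?_, h3, ?_⟩
    · intro h
      have := orderOf_dvd_of_pow_eq_one h
      have := Nat.le_of_dvd (by omega) this
      omega
    · have h4 : b = a * u := by rw [hu, ← mul_assoc, ha, one_mul]
      rw [h4, ← mul_assoc, h3, mul_assoc, mul_assoc, ← pow_succ, ← pow_succ']
  · right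
    refine ⟨m, ?_⟩
    have h1 := hau m
    have h2 : u ^ m * a = a * (u ^ m)⁻¹ := by
      have h3 : (u ^ m)⁻¹ * a = a * u ^ m := by
        rw [← h1, inv_mul_cancel_right]
      calc u ^ m * a = u ^ m * ((u ^ m)⁻¹ * a) * a⁻¹ * a * (u^m) * (u ^ m)⁻¹ * a⁻¹ * (u^m * a) := by group
        _ = a * (u ^ m)⁻¹ := by
          have h4 : a = u ^ m * (a * u ^ m) := by rw [← h3]; group
          have h5 : u ^ m * a = a * (u ^ m)⁻¹ := by
            have : u ^ m * a * u ^ m = a := by rw [mul_assoc]; exact h4.symm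
            exact eq_mul_inv_of_mul_eq this
          rw [h5]; group
    rw [h2, mul_assoc, ← mul_inv_rev, ← pow_add, ← two_mul]
    have h3 : u ^ (2 * m) * u = 1 := by rw [← pow_succ, ← hm, pow_orderOf_eq_one]
    have h4 : (u ^ (2 * m))⁻¹ = u := inv_eq_of_mul_eq_one_right h3
    rw [h4, hu, ← mul_assoc, ha, one_mul]

/-- A pair of non-commuting elements with maximal fixed spaces. -/
structure PairS (H V : Type*) [Group H] [AddCommGroup V] [DistribMulAction H V] (t s : H) : Prop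
    extends TwoS H V where
  ht : TT V t
  hs : TT V s
  hc : Nat.card (fixE V s) = Nat.card (fixE V t)
  hnc : t * s ≠ s * t

/-- The elements fixing the common fixed space. -/
def InK (V : Type*) [AddCommGroup V] [DistribMulAction H V] (t s k : H) : Prop :=
  ∀ z : V, t • z = z → s • z = z → k • z = z

theorem InK.symm {t s k : H} (h : InK V t s k) : InK V s t k := fun z h1 h2 => h z h2 h1

theorem InK.mul {t s k l : H} (h : InK V t s k) (h' : InK V t s l) : InK V t s (k * l) := by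
  intro z h1 h2
  rw [mul_smul, h' z h1 h2, h z h1 h2]

theorem InK.inv {t s k : H} (h : InK V t s k) : InK V t s k⁻¹ := by
  intro z h1 h2
  rw [inv_smul_eq_iff, h z h1 h2]

theorem InK.one {t s : H} : InK V t s 1 := fun z _ _ => one_smul H z

theorem InK.pow {t s k : H} (h : InK V t s k) (n : ℕ) : InK V t s (k ^ n) := by
  induction n with
  | zero => rw [pow_zero]; exact InK.one
  | succ n ih => rw [pow_succ]; exact ih.mul h

theorem InK.left {t s : H} : InK V t s t := fun _ h _ => h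
theorem InK.right {t s : H} : InK V t s s := fun _ _ h => h

namespace PairS

variable {t s : H}

theorem symm (hP : PairS H V t s) : PairS H V s t where
  toTwoS := hP.toTwoS
  ht := hP.hs
  hs := hP.ht
  hc := hP.hc.symm
  hnc := fun h => hP.hnc h.symm

theorem L0 (hP : PairS H V t s) {a : V} (h : s • (t • a + a) = t • a + a) : t • a + a = 0 := by
  by_contra h0
  exact hP.hnc (hP.E5 hP.ht h0 h).symm

theorem L1 [Finite V] (hP : PairS H V t s) (v : V) : ∃ a y : V, s • y = y ∧ v = (t • a + a) + y := by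
  obtain ⟨x, ⟨a, ha⟩, y, hy, rfl⟩ := sum_surj (A := PP V t) (B := fixE V s)
    (by
      rintro x ⟨a, rfl⟩ hx
      exact hP.L0 hx)
    (by rw [hP.hc, mul_comm]; exact hP.card_fix_PP t) v
  exact ⟨a, y, hy, by rw [← ha]; rfl⟩

theorem L2 [Finite V] (hP : PairS H V t s) {v : V} (hv : t • v = v) :
    ∃ a z : V, t • z = z ∧ s • z = z ∧ v = (t • a + a) + z := by
  obtain ⟨a, y, hy, rfl⟩ := hP.L1 v
  refine ⟨a, y, ?_, hy, rfl⟩
  rw [smul_add, hP.comm_fixed hP.ht] at hv
  exact add_left_cancel hv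

theorem K12 [Finite V] (hP : PairS H V t s) {k : H} (hk : InK V t s k) (hkt : k * t = t * k) :
    FL V t k := by
  intro v hv
  obtain ⟨a, z, h1, h2, rfl⟩ := hP.L2 hv
  rw [smul_add, hk z h1 h2, hP.E4 hP.ht hkt]

theorem not_FL [Finite V] (hP : PairS H V t s) {k : H} (hk : k ≠ 1) (h1 : FL V t k)
    (h2 : FL V s k) : False := by
  apply hk
  apply hP.faith
  intro v
  obtain ⟨a, y, hy, rfl⟩ := hP.L1 v
  rw [smul_add, h2 y hy, h1 _ (hP.comm_fixed hP.ht a)]

theorem pair' [Finite V] (hP : PairS H V t s) {t' : H} (ht' : t' ≠ 1) (h : FL V t t') :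
    PairS H V t' s where
  toTwoS := hP.toTwoS
  ht := hP.ht.mono ht' h
  hs := hP.hs
  hc := by
    have h1 := hP.ht.2 t' ht' h
    have : fixE V t = fixE V t' := le_antisymm (fun v hv => h v hv) (fun v hv => h1 v hv)
    rw [hP.hc, this]
  hnc := by
    intro hcom
    have h1 := hP.ht.2 t' ht' h
    obtain ⟨b, hb⟩ := hP.exists_moved hP.hs.1
    have h2 : t' • (s • b + b) = s • b + b := hP.E4 hP.hs hcom b
    apply hP.hnc
    exact hP.E5 hP.hs (a := b) (fun h0 => hb (hP.cancel h0)) (h1 _ h2)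

theorem K12' [Finite V] (hP : PairS H V t s) {t' k : H} (ht' : t' ≠ 1) (h : FL V t t')
    (hk : InK V t s k) (hkt : k * t' = t' * k) : FL V t k := by
  have hP' := hP.pair' ht' h
  have h1 := hP.ht.2 t' ht' h
  have h2 : InK V t' s k := fun z hz1 hz2 => hk z (h1 z hz1) hz2
  exact h.trans (hP'.K12 h2 hkt)

theorem comm_of_FL (hP : PairS H V t s) {a b : H} (ha : FL V t a) (hb : FL V t b) :
    a * b = b * a := by
  have h1 := hP.sq' hP.ht ha
  have h2 := hP.sq' hP.ht hb
  have h3 := hP.sq' hP.ht (k := a * b) (by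
    intro v hv
    rw [mul_smul, hb v hv, ha v hv])
  calc a * b = (a * b)⁻¹ := (inv_eq_of_mul_eq_one_left h3).symm
    _ = b⁻¹ * a⁻¹ := mul_inv_rev a b
    _ = b * a := by rw [inv_eq_of_mul_eq_one_left h1, inv_eq_of_mul_eq_one_left h2]

theorem K13 [Finite H] [Finite V] (hP : PairS H V t s) {g : H} (hg : InK V t s g)
    (hgt : ∀ c : V, t • c = c → t • g • c = g • c) : FL V t g := by
  classical
  -- inverse also preserves
  have hgi : ∀ c : V, t • c = c → t • g⁻¹ • c = g⁻¹ • c := by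
    intro c hc
    have hinj : Function.Injective
        (fun y : fixE V t => (⟨g • y.1, hgt y.1 y.2⟩ : fixE V t)) := by
      intro a b hab
      apply Subtype.ext
      exact (smul_left_cancel_iff g).mp (congrArg Subtype.val hab)
    obtain ⟨y, hy⟩ := (Finite.injective_iff_surjective.mp hinj) ⟨c, hc⟩
    have h1 : g • y.1 = c := congrArg Subtype.val hy
    rw [← h1, inv_smul_smul]
    exact y.2
  obtain ⟨a, ha⟩ := hP.exists_moved hP.ht.1
  have hx : t • a + a ≠ 0 := fun h0 => ha (hP.cancel h0)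
  obtain ⟨k, hk1, hk2, hk3⟩ := K_inv hP.bin {z : V | t • z = z ∧ s • z = z} (h := g)
    (fun z hz => hg z hz.1 hz.2) (t • a + a)
  have hkK : InK V t s k := fun z h1 h2 => hk1 z ⟨h1, h2⟩
  have hkt : k * t = t * k := hP.E5 hP.ht hx hk2
  have hkFL := hP.K12 hkK hkt
  rw [hkFL _ (hgt _ (hP.comm_fixed hP.ht a))] at hk3
  have hgg : (g * g) • (t • a + a) = t • a + a := by
    rw [mul_smul, hk3, smul_inv_smul]
  have hggt := hP.E5 hP.ht hx hgg
  have hggFL := hP.K12 (hg.mul hg) hggt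
  -- the involution on `K_t`
  let α := {t' : H // t' ≠ 1 ∧ FL V t t'}
  have hconjFL : ∀ (l : H), (∀ c : V, t • c = c → t • l⁻¹ • c = l⁻¹ • c) → ∀ t' : H, FL V t t' →
      FL V t (l * t' * l⁻¹) := by
    intro l hl t' ht' c hc
    rw [mul_smul, mul_smul, ht' _ (hl c hc), smul_inv_smul]
  have hconj1 : ∀ (l t' : H), t' ≠ 1 → l * t' * l⁻¹ ≠ 1 := by
    intro l t' ht' h
    apply ht'
    have : t' = l⁻¹ * (l * t' * l⁻¹) * l := by group
    rw [this, h]; group
  let σ : Equiv.Perm α :=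
    { toFun := fun t' => ⟨g * t'.1 * g⁻¹, hconj1 g t'.1 t'.2.1, hconjFL g hgi t'.1 t'.2.2⟩
      invFun := fun t' => ⟨g⁻¹ * t'.1 * g⁻¹⁻¹, hconj1 g⁻¹ t'.1 t'.2.1,
        hconjFL g⁻¹ (by rw [inv_inv]; exact hgt) t'.1 t'.2.2⟩
      left_inv := by
        intro t'
        apply Subtype.ext
        simp only
        group
      right_inv := by
        intro t'
        apply Subtype.ext
        simp only
        group }
  have hσ2 : σ ^ 2 ^ 1 = 1 := by
    rw [pow_one, _root_.sq]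
    ext t'
    change g * (g * t'.1 * g⁻¹) * g⁻¹ = t'.1
    have h1 := hP.comm_of_FL hggFL t'.2.2
    calc g * (g * t'.1 * g⁻¹) * g⁻¹ = (g * g) * t'.1 * (g * g)⁻¹ := by group
      _ = t'.1 := by rw [h1, mul_assoc, mul_inv_cancel, mul_one]
  letI : Fintype α := Fintype.ofFinite α
  have hcard : ¬ 2 ∣ Fintype.card α := by
    have e1 : (Nat.card α) + 1 = Nat.card (fixingSubgroup H {c : V | t • c = c}) := by
      have e2 : Nat.card α = ((fixingSubgroup H {c : V | t • c = c} : Set H) \ {1}).ncard := by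
        rw [← Nat.card_coe_set_eq]
        refine Nat.card_congr (Equiv.subtypeEquivRight ?_)
        intro x
        constructor
        · rintro ⟨h1, h2⟩
          exact ⟨(mem_fixingSubgroup_iff H).mpr h2, h1⟩
        · rintro ⟨h1, h2⟩
          exact ⟨h2, (mem_fixingSubgroup_iff H).mp h1⟩
      rw [e2, Set.ncard_sdiff_singleton_add_one (Subgroup.one_mem _) (Set.toFinite _)]
      rfl
    have e3 : 2 ∣ Nat.card (fixingSubgroup H {c : V | t • c = c}) := by
      have htm : t ∈ fixingSubgroup H {c : V | t • c = c} :=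
        (mem_fixingSubgroup_iff H).mpr (fun c hc => hc)
      have h1 : orderOf (⟨t, htm⟩ : fixingSubgroup H {c : V | t • c = c}) = 2 := by
        rw [← Subgroup.orderOf_coe]
        exact orderOf_eq_prime (by rw [_root_.sq]; exact hP.sq hP.ht) hP.ht.1
      rw [← h1]
      exact orderOf_dvd_natCard _
    rw [← Nat.card_eq_fintype_card]
    omega
  haveI : Fact (Nat.Prime 2) := ⟨Nat.prime_two⟩
  obtain ⟨t', ht'⟩ := Equiv.Perm.exists_fixed_point_of_prime hcard hσ2
  have h1 : g * t'.1 * g⁻¹ = t'.1 := congrArg Subtype.val ht'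
  exact hP.K12' t'.2.1 t'.2.2 hg (mul_inv_eq_iff_eq_mul.mp h1)

theorem K14 [Finite H] [Finite V] (hP : PairS H V t s) {r : H} (hr : TT V r) (hrK : InK V t s r)
    (hrt : ¬ FL V t r) : ∃ k : H, InK V t s k ∧ k * r * k⁻¹ = t := by
  rcases dih_alt (hP.sq hr) (hP.sq hP.ht) with ⟨m, h1, h2, h3⟩ | ⟨m, h1⟩
  · exfalso
    apply hrt
    have hj : InK V t s ((r * t) ^ m) := (hrK.mul InK.left).pow m
    exact hP.K12' h1 (hP.K12 hj h3) hrK h2.symm
  · exact ⟨_, (hrK.mul InK.left).pow m, h1⟩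

theorem K14' [Finite H] [Finite V] (hP : PairS H V t s) {r : H} (hr : TT V r)
    (hrK : InK V t s r) : ∃ k : H, InK V t s k ∧ k * r * k⁻¹ = t := by
  by_cases hrt : FL V t r
  · obtain ⟨k, hk1, hk2⟩ := hP.symm.K14 hr hrK.symm (fun h => hP.not_FL hr.1 hrt h)
    obtain ⟨l, hl1, hl2⟩ := hP.K14 hP.hs InK.right
      (fun h => hP.not_FL hP.hs.1 h (fun _ h => h))
    refine ⟨l * k, hl1.mul hk1.symm, ?_⟩
    rw [← hl2, ← hk2]; group
  · exact hP.K14 hr hrK hrt

theorem K17 [Finite H] [Finite V] (hP : PairS H V t s) {r : H} (hr1 : r ≠ 1) (hrt : FL V t r) :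
    r = t := by
  have hr : TT V r := hP.ht.mono hr1 hrt
  have hrt' : FL V r t := hP.ht.2 r hr1 hrt
  have hrK : InK V t s r := fun z h1 _ => hrt z h1
  obtain ⟨k, hk1, hk2⟩ := hP.K14' hr hrK
  have h1 : FL V t k⁻¹ := by
    apply hP.K13 hk1.inv
    intro c hc
    apply hrt'
    rw [← hk2, mul_smul, mul_smul] at hc
    rw [← smul_left_cancel_iff k, smul_inv_smul]
    exact hc
  have h2 := hP.comm_of_FL h1 (fun _ h => h : FL V t t)
  calc r = k⁻¹ * (k * r * k⁻¹) * k := by group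
    _ = k⁻¹ * t * k := by rw [hk2]
    _ = t := by rw [h2]; group

theorem K15 [Finite H] [Finite V] (hP : PairS H V t s) {v : V} (hv : ¬ (t • v = v ∧ s • v = v)) :
    ∃ r : H, TT V r ∧ InK V t s r ∧ r • v = v := by
  have h1 : ∃ k : H, InK V t s k ∧ k ≠ 1 ∧ k • v = v := by
    by_contra hcon
    push Not at hcon
    have h2 := hP.K_reg {z : V | t • z = z ∧ s • z = z} (v := v) (fun k hk hkv => by
      by_contra hk1
      exact hcon k (fun z h1 h2 => hk z ⟨h1, h2⟩) hk1 hkv) (h := t * s) (fun z hz => by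
        rw [mul_smul, hz.2, hz.1])
    apply hP.hnc
    calc t * s = (t * s)⁻¹ := (inv_eq_of_mul_eq_one_left h2).symm
      _ = s⁻¹ * t⁻¹ := mul_inv_rev t s
      _ = s * t := by
        rw [inv_eq_of_mul_eq_one_left (hP.sq hP.ht), inv_eq_of_mul_eq_one_left (hP.sq hP.hs)]
  obtain ⟨k, hk1, hk2, hk3⟩ := h1
  obtain ⟨r, hr1, hr2⟩ := exists_TT (V := V) hk2
  exact ⟨r, hr1, fun z h1 h2 => hr2 z (hk1 z h1 h2), hr2 v hk3⟩

theorem K18 [Finite H] [Finite V] (hP : PairS H V t s) {v : V} {k : H} (hk : InK V t s k)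
    (hk1 : k ≠ 1) (htv : t • v = v) (hsv : s • v ≠ v) (hkv : k • v = v) : k = t := by
  obtain ⟨a, z, h1, h2, rfl⟩ := hP.L2 htv
  have hx : t • a + a ≠ 0 := by
    intro h0
    apply hsv
    rw [h0, zero_add, h2]
  rw [smul_add, hk z h1 h2] at hkv
  have h3 := hP.E5 hP.ht hx (add_right_cancel hkv)
  exact hP.K17 hk1 (hP.K12 hk h3)

theorem K18' [Finite H] [Finite V] (hP : PairS H V t s) {v : V} {r k : H} (hr : TT V r)
    (hrK : InK V t s r) (hrv : r • v = v) (hv : ¬ (t • v = v ∧ s • v = v))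
    (hk : InK V t s k) (hkv : k • v = v) : k = 1 ∨ k = r := by
  by_cases hk1 : k = 1
  · left; exact hk1
  right
  obtain ⟨c, hc1, hc2⟩ := hP.K14' hr hrK
  have h1 : t • c • v = c • v := by
    rw [← hc2, mul_smul, mul_smul, inv_smul_smul, hrv]
  have h2 : s • c • v ≠ c • v := by
    intro h2
    have h3 := hc1.inv _ h1 h2
    rw [inv_smul_smul] at h3
    apply hv
    rw [h3]
    exact ⟨h1, h2⟩
  have h3 := hP.K18 (k := c * k * c⁻¹) ((hc1.mul hk).mul hc1.inv) (by
    intro h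
    apply hk1
    have : k = c⁻¹ * (c * k * c⁻¹) * c := by group
    rw [this, h]; group) h1 h2 (by
    rw [mul_smul, mul_smul, inv_smul_smul, hkv])
  rw [← hc2] at h3
  exact mul_left_cancel (mul_right_cancel h3)

theorem cent [Finite H] [Finite V] (hP : PairS H V t s) {r k : H} (hr : TT V r)
    (hrK : InK V t s r) (hk : InK V t s k) (hkr : k * r = r * k) : k = 1 ∨ k = r := by
  by_cases hk1 : k = 1
  · left; exact hk1
  right
  obtain ⟨c, hc1, hc2⟩ := hP.K14' hr hrK
  have h1 : (c * k * c⁻¹) * t = t * (c * k * c⁻¹) := by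
    rw [← hc2]
    calc c * k * c⁻¹ * (c * r * c⁻¹) = c * (k * r) * c⁻¹ := by group
      _ = c * (r * k) * c⁻¹ := by rw [hkr]
      _ = _ := by group
  have h2 := hP.K17 (r := c * k * c⁻¹) (by
    intro h
    apply hk1
    have : k = c⁻¹ * (c * k * c⁻¹) * c := by group
    rw [this, h]; group) (hP.K12 ((hc1.mul hk).mul hc1.inv) h1)
  rw [← hc2] at h2
  exact mul_left_cancel (mul_right_cancel h2)

theorem invol [Finite H] [Finite V] (hP : PairS H V t s) {k : H} (hk : InK V t s k)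
    (hk1 : k ≠ 1) (hkk : k * k = 1) : TT V k := by
  rcases dih_alt hkk (hP.sq hP.ht) with ⟨m, h1, h2, h3⟩ | ⟨m, h1⟩
  · have hj : InK V t s ((k * t) ^ m) := (hk.mul InK.left).pow m
    rcases hP.cent hP.ht InK.left hj h3 with e | e
    · exact absurd e h1
    · rw [e] at h2
      rcases hP.cent hP.ht InK.left hk h2.symm with e' | e'
      · exact absurd e' hk1
      · rw [e']; exact hP.ht
  · obtain ⟨c, hc⟩ : ∃ c, c = (k * t) ^ m := ⟨_, rfl⟩
    rw [← hc] at h1
    have h2 : k = c⁻¹ * (c * k * c⁻¹) * c⁻¹⁻¹ := by group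
    rw [h1] at h2
    rw [h2]
    exact hP.ht.conj _

theorem moved [Finite H] [Finite V] (hP : PairS H V t s) {r : H} (hr : TT V r)
    (hrK : InK V t s r) : ∃ v : V, r • v = v ∧ ¬ (t • v = v ∧ s • v = v) := by
  obtain ⟨c, hc1, hc2⟩ := hP.K14' hr hrK
  obtain ⟨a, ha⟩ := hP.exists_moved hP.ht.1
  have hx : t • a + a ≠ 0 := fun h0 => ha (hP.cancel h0)
  refine ⟨c⁻¹ • (t • a + a), ?_, ?_⟩
  · have h1 := hP.comm_fixed hP.ht a
    nth_rewrite 1 [← hc2] at h1
    rw [mul_smul, mul_smul] at h1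
    rw [← smul_left_cancel_iff c, smul_inv_smul]
    exact h1
  · rintro ⟨h1, h2⟩
    have h3 := hc1 _ h1 h2
    rw [smul_inv_smul] at h3
    rw [← h3] at h2
    exact hx (hP.L0 h2)

end PairS

end Cfsg.Agent.H8B
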